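import Cfsg.Agent.H906.Cov.U62A
import Cfsg.Agent.LargeExtra.W2.U43.InvClass
import Cfsg.Agent.OddHalf.D6.QThree.U43Tw
import Cfsg.Agent.H680.Cov.SU6.Res
import Cfsg.Agent.H921.M22.Facts2
import Cfsg.Agent.H359.FactsB
import Cfsg.Agent.H559.USixSpec
import Cfsg.Agent.S5802
import Cfsg.Agent.SporadicStructure.PsuMatch

/-!
# `U₄(3)` has at most two classes of elements of order 4 (helper906, for S2499)

* `tw_four` : in the situation `Tw` every `u` with `u² = z` is conjugate to `i` or `y`.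
* `two_classes` : there are `a`, `b` in `PSU_4(3)` such that each element of order 4 is conjugate to `a` or `b`.
-/

set_option autoImplicit false

namespace Cfsg.Agent.H906.Cov

open Cfsg
open Cfsg.Agent.Co2Type.Quad Cfsg.Agent.LargeExtra.W2.CM Cfsg.Agent.LargeExtra.W2.U43
open Cfsg.Agent.LargeExtra.W2.U43.ExistsD

def conj4 : List T :=
  [T.one, ts].flatMap fun f => [T.one, ty].flatMap fun e => [T.one, ti, tj, mu ti tj].flatMap fun q =>
    [T.one, tk, tl, mu tk tl].flatMap fun r => [T.one, tx₁, mu tx₁ tx₁].flatMap fun a =>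
      [T.one, tx₂, mu tx₂ tx₂].map fun b => mu f (mu q (mu r (mu a (mu b e))))

def chk4 : T → Bool := fun t =>
  !(T.beq (mu t t) tz) || anyL conj4 (fun c => anyL [ti, ty] (fun r => T.beq (mu c t) (mu r c)))

theorem fact4 : allT chk4 = true := by decide +kernel

theorem tw_four {G : Type*} [Group G] [Finite G] {Q : Subgroup G} {z i j k l x₁ x₂ y s : G}
    (h : Tw Q z i j k l x₁ x₂ y s) {u : G} (hu : u * u = z) : ∃ c : G, c * u = i * c ∨ c * u = y * c := by
  have R := h.rules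
  have inj := ev_inj h.toCase9aa R
  set EV : T → G := fun t => t.ev z i j k l x₁ x₂ y s with hEV
  have emul : ∀ t u, EV t * EV u = EV (mu t u) := fun t u => ev_mul R t u
  have ez : EV tz = z := ev_z
  have ei : EV ti = i := ev_i
  have ey : EV ty = y := ev_y
  have hc : u * z = z * u := by rw [← hu, mul_assoc]
  obtain ⟨t, rfl⟩ : ∃ t, u = EV t := exists_ev h.toCase9aa R hc
  have h1 : mu t t = tz := by
    apply inj
    show EV (mu t t) = EV tz
    rw [← emul, hu, ez]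
  have h3 := allT_spec fact4 t
  simp only [chk4, Bool.or_eq_true, Bool.not_eq_true'] at h3
  rcases h3 with h3 | h3
  · rw [← Bool.not_eq_true, T.beq_iff] at h3
    exact absurd h1 h3
  · obtain ⟨c, -, hc⟩ := anyL_mem h3
    obtain ⟨r, hr, hc⟩ := anyL_mem hc
    have hc := T.eq_of_beq hc
    refine ⟨EV c, ?_⟩
    rw [emul, hc, ← emul]
    simp only [List.mem_cons, List.not_mem_nil, or_false] at hr
    rcases hr with rfl | rfl
    · exact Or.inl (by rw [ei])
    · exact Or.inr (by rw [ey])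

theorem of_tw {G : Type*} [Group G] [Finite G] {Q : Subgroup G} {z i j k l x₁ x₂ y s : G}
    (hT : Tw Q z i j k l x₁ x₂ y s) (hcls : ∀ t : G, t * t = 1 → t ≠ 1 → ∃ g, g * z * g⁻¹ = t) {u : G}
    (hu : orderOf u = 4) : (∃ g, g * u * g⁻¹ = i) ∨ (∃ g, g * u * g⁻¹ = y) := by
  have h4 : u ^ 4 = 1 := by
    have := pow_orderOf_eq_one u
    rwa [hu] at this
  have h2 : u * u ≠ 1 := by
    intro h
    rw [← pow_two] at h
    have := orderOf_dvd_of_pow_eq_one h
    rw [hu] at this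
    omega
  obtain ⟨g, hg⟩ := hcls (u * u) (by rw [← h4]; simp only [pow_succ, pow_zero, one_mul, mul_assoc]) h2
  have h5 : (g⁻¹ * u * g) * (g⁻¹ * u * g) = z := by
    calc (g⁻¹ * u * g) * (g⁻¹ * u * g) = g⁻¹ * (u * u) * g := by group
      _ = z := by rw [← hg]; group
  obtain ⟨c, hc | hc⟩ := tw_four hT h5
  · left
    refine ⟨c * g⁻¹, ?_⟩
    have : c * g⁻¹ * u * (c * g⁻¹)⁻¹ = c * (g⁻¹ * u * g) * c⁻¹ := by group
    rw [this, hc]; group
  · right
    refine ⟨c * g⁻¹, ?_⟩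
    have : c * g⁻¹ * u * (c * g⁻¹)⁻¹ = c * (g⁻¹ * u * g) * c⁻¹ := by group
    rw [this, hc]; group

theorem two_classes {F : Type*} [Field F] [Fintype F] (hF : Fintype.card F = 9) :
    ∃ a b : PSU 4 F 3, ∀ u : PSU 4 F 3, orderOf u = 4 → (∃ g, g * u * g⁻¹ = a) ∨ (∃ g, g * u * g⁻¹ = b) := by
  have hchar : CharP F 3 := by
    obtain ⟨p, hp⟩ := CharP.exists F
    have := hp
    obtain ⟨n, hp1, hn⟩ := FiniteField.card F p
    rw [hF] at hn
    have h1 : p ∣ 9 := by rw [hn]; exact dvd_pow_self p n.2.ne'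
    have h2 : p ∣ 3 := hp1.dvd_of_dvd_pow (show p ∣ 3 ^ 2 by simpa using h1)
    have h3 : p = 3 := (Nat.prime_dvd_prime_iff_eq hp1 Nat.prime_three).1 h2
    rw [h3] at hp
    exact hp
  obtain ⟨i, j, k, l, x₁, x₂, y, s, hT, -, -⟩ := Cfsg.Agent.OddHalf.D6.QThree.U43Tw.exists_tw (F := F) hF
  exact ⟨i, y, fun u hu => of_tw hT (Cfsg.Agent.OddHalf.D6.QThree.U43Tw.one_class (F := F) hF) hu⟩

end Cfsg.Agent.H906.Cov

/-!
# S2499, `U₆(2)`: the residual subgroups (helper906)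
-/

namespace Cfsg.Agent.H906.Cov.U62

section seven

open Subgroup

variable {T : Type*} [Group T] [Finite T]

theorem cent_seven (h7 : ∀ x : T, 7 ∣ orderOf x → x ^ 7 = 1) (h49 : ¬ 49 ∣ Nat.card T) {y : T} (hy : orderOf y = 7) :
    Subgroup.centralizer ({y} : Set T) = zpowers y := by
  set C := Subgroup.centralizer ({y} : Set T) with hC
  have hyC : y ∈ C := mem_centralizer_singleton_iff.2 rfl
  have hle : zpowers y ≤ C := by rw [zpowers_le]; exact hyC
  have hp : ∀ r : ℕ, r.Prime → r ∣ Nat.card C → r = 7 := by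
    intro r hr hd
    by_contra hne
    have := Fact.mk hr
    obtain ⟨x, hx⟩ := exists_prime_orderOf_dvd_card' r hd
    have hx' : orderOf (x : T) = r := by rw [Subgroup.orderOf_coe, hx]
    have hcomm : Commute y (x : T) := (mem_centralizer_singleton_iff.1 x.2).symm
    have hcop : Nat.Coprime (orderOf y) (orderOf (x : T)) := by
      rw [hy, hx', Nat.coprime_comm, hr.coprime_iff_not_dvd]
      intro h
      exact hne ((Nat.prime_dvd_prime_iff_eq hr (by norm_num)).1 h)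
    have ho := hcomm.orderOf_mul_eq_mul_orderOf_of_coprime hcop
    rw [hy, hx'] at ho
    have h1 := h7 (y * x) (by rw [ho]; exact Dvd.intro _ rfl)
    have h2 := orderOf_dvd_of_pow_eq_one h1
    rw [ho] at h2
    have h3 := Nat.le_of_dvd (by norm_num) h2
    have := hr.two_le
    omega
  have hcard : Nat.card C = 7 := by
    obtain ⟨n, hn⟩ : ∃ n, Nat.card C = 7 ^ n := by
      refine ⟨_, Nat.eq_prime_pow_of_unique_prime_dvd Nat.card_pos.ne' ?_⟩
      intro d hd hdd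
      exact hp d hd hdd
    have h0 : n ≠ 0 := by
      rintro rfl
      have h1 := Subgroup.card_dvd_of_le hle
      rw [Nat.card_zpowers, hy, hn] at h1
      norm_num at h1
    have h1 : n < 2 := by
      by_contra h
      apply h49
      have h2 : 7 ^ 2 ∣ Nat.card C := by rw [hn]; exact pow_dvd_pow 7 (by omega)
      exact (show (49 : ℕ) = 7 ^ 2 by norm_num) ▸ h2.trans (Subgroup.card_subgroup_dvd_card C)
    have : n = 1 := by omega
    rw [hn, this, pow_one]
  exact (Subgroup.eq_of_le_of_card_ge hle (by rw [hcard, Nat.card_zpowers, hy])).symm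

theorem sq_mem_of_seven {S M : Subgroup T} (hn : ∀ m ∈ M, ∀ s ∈ S, m * s * m⁻¹ ∈ S)
    (h7 : ∀ x : T, 7 ∣ orderOf x → x ^ 7 = 1) (h49 : ¬ 49 ∣ Nat.card T) {a : ℕ} (hc : Nat.card S = 7 * a)
    (ha : a % 7 = 3) {m : T} (hm : m ∈ M) : m * m ∈ S := by
  have hp7 : Fact (Nat.Prime 7) := ⟨by norm_num⟩
  obtain ⟨y', hy'⟩ := exists_prime_orderOf_dvd_card' (G := S) 7 (by rw [hc]; exact Dvd.intro _ rfl)
  set y : T := (y' : T) with hydef
  have hyS : y ∈ S := y'.2
  have hy : orderOf y = 7 := by rw [hydef, Subgroup.orderOf_coe, hy']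
  set Y := zpowers y with hY
  have hYS : Y ≤ S := by rw [hY, zpowers_le]; exact hyS
  have hcY : Nat.card Y = 7 := by rw [hY, Nat.card_zpowers, hy]
  have hC := cent_seven h7 h49 hy
  have hCY : Subgroup.centralizer (Y : Set T) = Y := by
    apply le_antisymm
    · intro g hg
      have h1 : g ∈ Subgroup.centralizer ({y} : Set T) :=
        mem_centralizer_singleton_iff.2 ((mem_centralizer_iff.1 hg y (mem_zpowers y)).symm)
      rwa [hC] at h1
    · intro g hg
      refine mem_centralizer_iff.2 fun h hh => ?_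
      obtain ⟨i, rfl⟩ := mem_zpowers_iff.1 hg
      obtain ⟨j, rfl⟩ := mem_zpowers_iff.1 hh
      rw [← zpow_add, ← zpow_add, add_comm]
  set N := Subgroup.normalizer (Y : Set T) with hN
  let φ : N →* MulAut Y := Y.normalizerMonoidHom
  have hker : ∀ n : N, φ n = 1 → (n : T) ∈ Y := by
    intro n hn1
    have h1 : n ∈ φ.ker := hn1
    have h2 : φ.ker = (Subgroup.centralizer (Y : Set T)).subgroupOf N := Y.normalizerMonoidHom_ker
    rw [h2, mem_subgroupOf, hCY] at h1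
    exact h1
  have hYN : Y ≤ N := Subgroup.le_normalizer
  -- the image of `S ∩ N`
  let I : Subgroup (MulAut Y) := (S.subgroupOf N).map φ
  have hcyc : IsCyclic Y := by rw [hY]; infer_instance
  have hcA : Nat.card (MulAut Y) = 6 := by
    rw [IsCyclic.card_mulAut, hcY]
    decide
  have hI6 : Nat.card I ∣ 6 := by rw [← hcA]; exact Subgroup.card_subgroup_dvd_card I
  have hcSN : Nat.card ↥(S.subgroupOf N) = 7 * Nat.card I := by
    let ψ : ↥(S.subgroupOf N) →* MulAut Y := φ.comp (S.subgroupOf N).subtype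
    have hψ : ψ.range = I := by
      ext x
      constructor
      · rintro ⟨a, rfl⟩
        exact ⟨a, a.2, rfl⟩
      · rintro ⟨a, ha, rfl⟩
        exact ⟨⟨a, ha⟩, rfl⟩
    have h1 : Nat.card ↥(φ.ker.subgroupOf (S.subgroupOf N)) * Nat.card I = Nat.card ↥(S.subgroupOf N) := by
      have h2 := Subgroup.card_mul_index ψ.ker
      rw [Subgroup.index_ker, hψ] at h2
      rw [← h2]
      rfl
    have h3 : Nat.card ↥(φ.ker.subgroupOf (S.subgroupOf N)) = 7 := by
      have h4 : φ.ker ≤ S.subgroupOf N := by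
        intro n hn1
        exact hYS (hker n hn1)
      rw [Nat.card_congr (Subgroup.subgroupOfEquivOfLe h4).toEquiv]
      have h5 : φ.ker = Y.subgroupOf N := by
        rw [show φ.ker = (Subgroup.centralizer (Y : Set T)).subgroupOf N from Y.normalizerMonoidHom_ker, hCY]
      rw [h5, Nat.card_congr (Subgroup.subgroupOfEquivOfLe hYN).toEquiv, hcY]
    rw [← h1, h3]
  -- Sylow
  have h7a : ¬ 7 ∣ a := by omega
  have hcP : Nat.card ↥(Y.subgroupOf S) = 7 := by
    rw [Nat.card_congr (Subgroup.subgroupOfEquivOfLe hYS).toEquiv, hcY]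
  have hmul : (Nat.card S).factorization 7 = 1 := by
    rw [hc, Nat.factorization_mul (by norm_num) (by rintro rfl; exact h7a (dvd_zero 7)), Finsupp.add_apply,
      Nat.Prime.factorization_self (by norm_num), Nat.factorization_eq_zero_of_not_dvd h7a]
  let P : Sylow 7 S := Sylow.ofCard (Y.subgroupOf S) (by rw [hcP, hmul, pow_one])
  have hP : (P : Subgroup S) = Y.subgroupOf S := rfl
  have hsyl := card_sylow_modEq_one 7 S
  have hidx := P.card_eq_index_normalizer
  have hnorm : Subgroup.normalizer (((P : Subgroup S)) : Set S) = N.subgroupOf S := by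
    rw [hP]
    exact (Subgroup.subgroupOf_normalizer_eq hYS).symm
  have hcNS : Nat.card ↥(N.subgroupOf S) = Nat.card ↥(S.subgroupOf N) := by
    have e1 : Nat.card ↥(N.subgroupOf S) = Nat.card ↥(N ⊓ S) := by
      rw [← Subgroup.inf_subgroupOf_right N S]
      exact Nat.card_congr (Subgroup.subgroupOfEquivOfLe inf_le_right).toEquiv
    have e2 : Nat.card ↥(S.subgroupOf N) = Nat.card ↥(N ⊓ S) := by
      rw [← Subgroup.inf_subgroupOf_right S N, inf_comm]
      exact Nat.card_congr (Subgroup.subgroupOfEquivOfLe inf_le_left).toEquiv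
    rw [e1, e2]
  have hI3 : Nat.card I = 3 := by
    have h1 := Subgroup.card_mul_index (N.subgroupOf S)
    have h2 : (N.subgroupOf S).index = Nat.card (Sylow 7 S) := by rw [hidx, ← hnorm]; rfl
    rw [hcNS, hcSN, h2, hc] at h1
    have h3 : Nat.card I * Nat.card (Sylow 7 S) = a := by
      have : 7 * (Nat.card I * Nat.card (Sylow 7 S)) = 7 * a := by rw [← h1]; ring
      omega
    have h4 : Nat.card (Sylow 7 S) % 7 = 1 := hsyl
    have h5 : Nat.card I % 7 = 3 := by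
      have h6 : (Nat.card I * Nat.card (Sylow 7 S)) % 7 = Nat.card I % 7 := by
        rw [Nat.mul_mod, h4, mul_one, Nat.mod_mod]
      rw [← h6, h3, ha]
    have h6 := Nat.le_of_dvd (by norm_num) hI6
    omega
  have hidx2 : I.index = 2 := by
    have := Subgroup.card_mul_index I
    rw [hI3, hcA] at this
    omega
  -- the Frattini argument
  have hyM : m * y * m⁻¹ ∈ S := hn m hm y hyS
  obtain ⟨s, hsS, hs⟩ : ∃ s ∈ S, s * (m * y * m⁻¹) * s⁻¹ ∈ Y := by
    have ho : orderOf (⟨m * y * m⁻¹, hyM⟩ : S) = 7 := by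
      rw [← Subgroup.orderOf_coe]
      have : m * y * m⁻¹ = (MulAut.conj m).toMonoidHom y := rfl
      show orderOf (m * y * m⁻¹) = 7
      rw [this, orderOf_injective _ (MulAut.conj m).injective, hy]
    have hpg : IsPGroup 7 (zpowers (⟨m * y * m⁻¹, hyM⟩ : S)) := by
      apply IsPGroup.of_card (n := 1)
      rw [Nat.card_zpowers, ho, pow_one]
    obtain ⟨R, hR⟩ := hpg.exists_le_sylow
    obtain ⟨g, hg⟩ := MulAction.exists_smul_eq S R P
    refine ⟨(g : T), g.2, ?_⟩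
    have h1 : (⟨m * y * m⁻¹, hyM⟩ : S) ∈ (R : Subgroup S) := hR (mem_zpowers _)
    have h2 := Subgroup.smul_mem_pointwise_smul _ (MulAut.conj g) _ h1
    rw [← Sylow.coe_subgroup_smul] at h2
    have h3 : MulAut.conj g • (⟨m * y * m⁻¹, hyM⟩ : S) ∈ (P : Subgroup S) := by rw [← hg]; exact h2
    exact h3
  have hnN : s * m ∈ N := by
    rw [hN, mem_normalizer_iff]
    have h1 : (s * m) * y * (s * m)⁻¹ ∈ Y := by
      have : (s * m) * y * (s * m)⁻¹ = s * (m * y * m⁻¹) * s⁻¹ := by group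
      rwa [this]
    have h2 : Y.map (MulAut.conj (s * m)).toMonoidHom = Y := by
      apply Subgroup.eq_of_le_of_card_ge
      · rw [hY, MonoidHom.map_zpowers, zpowers_le]
        exact h1
      · rw [Nat.card_congr (Subgroup.equivMapOfInjective Y (MulAut.conj (s * m)).toMonoidHom (MulAut.conj (s * m)).injective).toEquiv]
    intro h
    constructor
    · intro hh
      have h3 : (MulAut.conj (s * m)).toMonoidHom h ∈ Y.map (MulAut.conj (s * m)).toMonoidHom := ⟨h, hh, rfl⟩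
      rwa [h2] at h3
    · intro hh
      have h3 : (MulAut.conj (s * m)).toMonoidHom h ∈ Y.map (MulAut.conj (s * m)).toMonoidHom := by
        rw [h2]; exact hh
      obtain ⟨k, hk, hk'⟩ := h3
      have := (MulAut.conj (s * m)).injective hk'
      rwa [← this]
  let n : N := ⟨s * m, hnN⟩
  have h1 : φ n ^ 2 ∈ I := Subgroup.sq_mem_of_index_two hidx2 _
  obtain ⟨t, ht, htn⟩ := h1
  have h2 : φ (n * n * t⁻¹) = 1 := by
    rw [map_mul, map_mul, map_inv, htn, pow_two, mul_inv_cancel]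
  have h3 := hYS (hker _ h2)
  have h4 : (s * m) * (s * m) ∈ S := by
    have h5 : (t : T) ∈ S := ht
    have h6 : (s * m) * (s * m) = ((n * n * t⁻¹ : N) : T) * (t : T) := by
      show (s * m) * (s * m) = (s * m) * (s * m) * (t : T)⁻¹ * (t : T)
      group
    rw [h6]
    exact S.mul_mem h3 h5
  have h5 : m * m = (s * (m * s * m⁻¹))⁻¹ * ((s * m) * (s * m)) := by group
  rw [h5]
  exact S.mul_mem (S.inv_mem (S.mul_mem hsS (hn m hm s hsS))) h4

end seven

open Cfsg Cfsg.Geo Matrix Module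
open Cfsg.Agent.SporadicA.FieldFour F4
open Cfsg.Agent.H852.USixElts
open Cfsg.Agent.H278.Cov (Av)
open Cfsg.Agent.H251.GeoU (pre)
open scoped MatrixGroups

theorem pr_eq_one_iff {x : G6} : pr x = 1 ↔ H918.suHom 6 F4 2 x ∈ scalars (Fin 6) F4 := by
  constructor
  · intro h
    obtain ⟨c, hc3, hc⟩ := pr_eq_one h
    rw [mem_scalars_iff]
    have hc0 : c ≠ 0 := by
      rintro rfl
      exact absurd hc3 (by decide)
    exact ⟨Units.mk0 c hc0, hc⟩
  · intro h
    rw [QuotientGroup.mk'_apply, QuotientGroup.eq_one_iff, Subgroup.mem_center_iff]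
    intro B
    apply H918.suHom_injective
    rw [map_mul, map_mul]
    exact (H251.GeoCard.scalars_central h _).symm

/-- the image in `T` of a subgroup of `GL_6(F4)` -/
def img (P : Subgroup (GL (Fin 6) F4)) : Subgroup T6 := (P.comap (H918.suHom 6 F4 2)).map pr

theorem img_equiv {P : Subgroup (GL (Fin 6) F4)} {M : Subgroup T6} (hP : P ≤ pre M) {X : Type*} [Group X]
    (e : (P ⧸ (scalars (Fin 6) F4).subgroupOf P) ≃* X) : Nonempty (img P ≃* X) := by
  let P' := P.comap (H918.suHom 6 F4 2)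
  let f : P' →* img P := (pr.comp P'.subtype).codRestrict (img P) fun x => ⟨x, x.2, rfl⟩
  have hf : Function.Surjective f := by
    rintro ⟨_, x, hx, rfl⟩
    exact ⟨⟨x, hx⟩, rfl⟩
  let g : P' →* P := ((H918.suHom 6 F4 2).comp P'.subtype).codRestrict P fun x => x.2
  have hg : Function.Surjective g := by
    rintro ⟨x, hx⟩
    obtain ⟨y, hy, rfl⟩ := hP hx
    exact ⟨⟨y, hx⟩, rfl⟩
  let h : P' →* X := e.toMonoidHom.comp ((QuotientGroup.mk' _).comp g)
  have hh : Function.Surjective h := e.surjective.comp ((QuotientGroup.mk'_surjective _).comp hg)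
  have hker : f.ker = h.ker := by
    ext x
    rw [MonoidHom.mem_ker, MonoidHom.mem_ker]
    have h1 : f x = 1 ↔ pr (x : G6) = 1 := by
      rw [Subtype.ext_iff]
      rfl
    have h2 : h x = 1 ↔ H918.suHom 6 F4 2 (x : G6) ∈ scalars (Fin 6) F4 := by
      have h3 : h x = e (QuotientGroup.mk (g x)) := rfl
      rw [h3, map_eq_one_iff e e.injective, QuotientGroup.eq_one_iff, Subgroup.mem_subgroupOf]
      rfl
    rw [h1, h2, pr_eq_one_iff]
  exact ⟨(QuotientGroup.quotientKerEquivOfSurjective f hf).symm.trans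
    ((QuotientGroup.quotientMulEquivOfEq hker).trans (QuotientGroup.quotientKerEquivOfSurjective h hh))⟩

theorem img_normal {P : Subgroup (GL (Fin 6) F4)} {M : Subgroup T6} (hP : IsResidualCore (pre M) P) :
    ∀ m ∈ M, ∀ s ∈ img P, m * s * m⁻¹ ∈ img P := by
  rintro m hm _ ⟨x, hx, rfl⟩
  obtain ⟨a, rfl⟩ := QuotientGroup.mk'_surjective _ m
  refine ⟨a * x * a⁻¹, ?_, by rw [map_mul, map_mul, map_inv]⟩
  have h1 : H918.suHom 6 F4 2 a ∈ pre M := mem_pre.2 hm
  have h2 := hP.normal _ h1 _ hx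
  rw [SetLike.mem_coe, Subgroup.mem_comap, map_mul, map_mul, map_inv]
  exact h2

theorem card_T6 : Nat.card T6 = 9196830720 := by
  have h0 := Cfsg.Agent.S0280.result (F := F4) (q := 2) hF 6 (by norm_num)
  have h1 : 9 * Nat.card T6 = 9 * 9196830720 := by
    rw [show (Nat.gcd 6 (2 + 1) : ℕ) = 3 by norm_num] at h0
    have h2 : 3 * ((2 + 1) * Nat.card T6) = 9 * Nat.card T6 := by ring
    rw [← h2, h0]
    decide
  omega

/-- squares lie in the socle -/
theorem sq_mem {P : Subgroup (GL (Fin 6) F4)} {M : Subgroup T6} (hP : IsResidualCore (pre M) P) {a : ℕ}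
    (hc : Nat.card (img P) = 7 * a) (ha : a % 7 = 3) {m : T6} (hm : m ∈ M) : m * m ∈ img P :=
  sq_mem_of_seven (img_normal hP) (fun x hx => H559.USixSpec.seven F4.card_eq x hx)
    (by rw [card_T6]; norm_num) hc ha hm

/-- elements of odd order lie in the socle -/
theorem odd_mem {P : Subgroup (GL (Fin 6) F4)} {M : Subgroup T6} (hP : IsResidualCore (pre M) P) {a : ℕ}
    (hc : Nat.card (img P) = 7 * a) (ha : a % 7 = 3) {m : T6} (hm : m ∈ M) {n : ℕ} (hn : m ^ (2 * n + 1) = 1) :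
    m ∈ img P := by
  have h1 := (img P).pow_mem (sq_mem hP hc ha hm) (n + 1)
  have h2 : (m * m) ^ (n + 1) = m := by
    rw [← pow_two, ← pow_mul, show 2 * (n + 1) = (2 * n + 1) + 1 by ring, pow_succ, hn, one_mul]
  rwa [h2] at h1

/-- an element of odd order `2 n + 1` such that `X` has no elements of this order -/
theorem av_odd {P : Subgroup (GL (Fin 6) F4)} {M : Subgroup T6} (hP : IsResidualCore (pre M) P) {X : Type*}
    [Group X] (e : (P ⧸ (scalars (Fin 6) F4).subgroupOf P) ≃* X) {a : ℕ}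
    (hc : Nat.card X = 7 * a) (ha : a % 7 = 3) {t : T6} {n : ℕ} (hn : orderOf t = 2 * n + 1)
    (hX : ∀ x : X, orderOf x ≠ 2 * n + 1) : Av t M := by
  obtain ⟨f⟩ := img_equiv hP.le e
  have hc' : Nat.card (img P) = 7 * a := by rw [Nat.card_congr f.toEquiv, hc]
  refine Cfsg.Agent.H278.Cov.av_of_order fun y hy h => ?_
  have h1 : y ∈ img P := odd_mem hP hc' ha hy (n := n) (by rw [← hn, ← h, pow_orderOf_eq_one])
  apply hX (f ⟨y, h1⟩)
  rw [MulEquiv.orderOf_eq, ← Subgroup.orderOf_coe, ← hn, ← h]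

theorem m22_card {X : Type*} [Group X] (h : Spor.IsoM22 X) : Nat.card X = 7 * 63360 := by
  obtain ⟨e⟩ := h
  rw [Nat.card_congr e.toEquiv, H921.M22.Facts.card_M22]

theorem u43_card {K : Type} [Field K] [Fintype K] (hK : Fintype.card K = 9) : Nat.card (PSU 4 K 3) = 7 * 466560 := by
  have h0 := Cfsg.Agent.S0280.result (F := K) (q := 3) (by rw [hK]; norm_num) 4 (by norm_num)
  have h1 : 16 * Nat.card (Cfsg.PSU 4 K 3) = 16 * (7 * 466560) := by
    rw [show (Nat.gcd 4 (3 + 1) : ℕ) = 4 by norm_num] at h0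
    have h2 : 4 * ((3 + 1) * Nat.card (Cfsg.PSU 4 K 3)) = 16 * Nat.card (Cfsg.PSU 4 K 3) := by ring
    rw [← h2, h0]
    decide
  omega

theorem m22_odd {X : Type*} [Group X] (h : Spor.IsoM22 X) (x : X) : orderOf x ≠ 9 ∧ orderOf x ≠ 15 := by
  obtain ⟨e⟩ := h
  rw [← MulEquiv.orderOf_eq e x]
  constructor
  · intro h
    have := H921.M22.Facts.odd (g := e x) (by rw [h]; norm_num)
    omega
  · intro h
    have := H921.M22.Facts.odd (g := e x) (by rw [h]; norm_num)
    omega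

/-! ### `U₄(3)` misses one of the three classes of regular unipotent elements -/

theorem XK_four : ∀ k : Fin 3, ∀ c : F4, XK k ^ 4 ≠ c • (1 : M6) := by decide +kernel

theorem order_sq (k : Fin 3) : orderOf (pr (xk k) ^ 2) = 4 := by
  have : Fact (Nat.Prime 2) := ⟨by norm_num⟩
  refine orderOf_eq_prime_pow (p := 2) (n := 1) ?_ ?_
  · intro h
    rw [pow_one, ← pow_mul, ← map_pow] at h
    obtain ⟨c, -, hc⟩ := pr_eq_one h
    rw [mat_pow, mat_xk] at hc
    exact XK_four k c hc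
  · rw [← pow_mul, ← map_pow]
    have h1 : xk k ^ (2 * 2 ^ (1 + 1)) = 1 := xk_pow k
    rw [h1, map_one]

theorem pigeon {G : Type*} [Group G] {a b : G} (F : Fin 3 → G)
    (h : ∀ k, (∃ g, g * F k * g⁻¹ = a) ∨ (∃ g, g * F k * g⁻¹ = b)) :
    ∃ j k, j ≠ k ∧ ∃ c, c * F j * c⁻¹ = F k := by
  have tr : ∀ {x y d : G}, (∃ g, g * x * g⁻¹ = d) → (∃ g, g * y * g⁻¹ = d) → ∃ c, c * x * c⁻¹ = y := by
    rintro x y d ⟨g, hg⟩ ⟨g', hg'⟩
    refine ⟨g'⁻¹ * g, ?_⟩
    have : g'⁻¹ * g * x * (g'⁻¹ * g)⁻¹ = g'⁻¹ * (g * x * g⁻¹) * g' := by group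
    rw [this, hg, ← hg']
    group
  rcases h 0 with h0 | h0
  · rcases h 1 with h1 | h1
    · exact ⟨0, 1, by decide, tr h0 h1⟩
    · rcases h 2 with h2 | h2
      · exact ⟨0, 2, by decide, tr h0 h2⟩
      · exact ⟨1, 2, by decide, tr h1 h2⟩
  · rcases h 1 with h1 | h1
    · rcases h 2 with h2 | h2
      · exact ⟨1, 2, by decide, tr h1 h2⟩
      · exact ⟨0, 2, by decide, tr h0 h2⟩
    · exact ⟨0, 1, by decide, tr h0 h1⟩

theorem u43_jordan {P : Subgroup (GL (Fin 6) F4)} {M : Subgroup T6} (hP : IsResidualCore (pre M) P)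
    {K : Type} [Field K] [Fintype K] (hK : Fintype.card K = 9)
    (e : (P ⧸ (scalars (Fin 6) F4).subgroupOf P) ≃* PSU 4 K 3) : ∃ k, Av (pr (xk k)) M := by
  by_contra hcon
  push Not at hcon
  obtain ⟨f⟩ := img_equiv hP.le e
  have hc' : Nat.card (img P) = 7 * 466560 := by rw [Nat.card_congr f.toEquiv, u43_card hK]
  obtain ⟨a, b, hab⟩ := two_classes hK
  -- the squares
  have key : ∀ k, ∃ g : T6, ∃ h : g * pr (xk k) ^ 2 * g⁻¹ ∈ img P, orderOf (f ⟨_, h⟩) = 4 := by
    intro k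
    obtain ⟨g, hg⟩ := Cfsg.Agent.H278.Cov.not_av (hcon k)
    have h1 := sq_mem hP hc' (by norm_num) hg
    have h2 : g * pr (xk k) * g⁻¹ * (g * pr (xk k) * g⁻¹) = g * pr (xk k) ^ 2 * g⁻¹ := by
      rw [pow_two]; group
    rw [h2] at h1
    refine ⟨g, h1, ?_⟩
    rw [MulEquiv.orderOf_eq, ← Subgroup.orderOf_coe]
    show orderOf (g * pr (xk k) ^ 2 * g⁻¹) = 4
    have h3 : g * pr (xk k) ^ 2 * g⁻¹ = (MulAut.conj g).toMonoidHom (pr (xk k) ^ 2) := rfl
    rw [h3, orderOf_injective _ (MulAut.conj g).injective]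
    exact order_sq k
  choose g hg ho using key
  obtain ⟨j, k, hjk, c, hc⟩ := pigeon (fun k => f ⟨_, hg k⟩) fun k => hab _ (ho k)
  apply hjk
  obtain ⟨c', rfl⟩ := f.surjective c
  rw [← map_mul, ← map_inv, ← map_mul] at hc
  have h1 : (c' : T6) * (g j * pr (xk j) ^ 2 * (g j)⁻¹) * (c' : T6)⁻¹ = g k * pr (xk k) ^ 2 * (g k)⁻¹ :=
    congrArg Subtype.val (f.injective hc)
  apply sq_ne (t := (g k)⁻¹ * (c' : T6) * g j)
  have h2 : (g k)⁻¹ * (c' : T6) * g j * pr (xk j) ^ 2 * ((g k)⁻¹ * (c' : T6) * g j)⁻¹ =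
      (g k)⁻¹ * ((c' : T6) * (g j * pr (xk j) ^ 2 * (g j)⁻¹) * (c' : T6)⁻¹) * g k := by group
  rw [h2, h1]
  group

end Cfsg.Agent.H906.Cov.U62

/-!
# S2499: `U₆(2)` is not the union of the conjugates of two proper subgroups (helper906)

Every maximal overgroup of an element of order 11 is the stabiliser of a nondegenerate point or has socle `M₂₂`
(S5663, S5803); the second subgroup is any maximal subgroup (S5802, S5803).
-/

namespace Cfsg.Agent.H906.Cov.U62

open Cfsg Cfsg.Geo Matrix Module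
open Cfsg.Agent.SporadicA.FieldFour F4
open Cfsg.Agent.H852.USixElts
open Cfsg.Agent.H278.Cov (Av NoTwo)
open Cfsg.Agent.H251.GeoU (pre)
open scoped MatrixGroups

/-- the residual cores -/
def IsM22 (M : Subgroup T6) : Prop := ∃ P : Subgroup (GL (Fin 6) F4), IsResidualCore (pre M) P ∧
  Spor.IsoM22 (P ⧸ (scalars (Fin 6) F4).subgroupOf P)

def IsU43 (M : Subgroup T6) : Prop := ∃ P : Subgroup (GL (Fin 6) F4), IsResidualCore (pre M) P ∧
  ∃ (K : Type) (_ : Field K) (_ : Fintype K), Fintype.card K = 9 ∧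
    Nonempty ((P ⧸ (scalars (Fin 6) F4).subgroupOf P) ≃* PSU 4 K 3)

theorem residual (hR : H680.Cov.SU6.R5803 F4 2) {M : Subgroup T6} (hM : IsCoatom M)
    (h : InUnitaryResidualClass (pre M)) : IsM22 M ∨ IsU43 M := by
  obtain ⟨P, hP, h1⟩ := hR (pre M) (H729.CovU.isMaximalIn_pre hM) h
  rcases h1 with ⟨-, -, h2, -⟩ | ⟨-, -, h2⟩ | ⟨-, -, h2⟩ | ⟨h2, -⟩ | ⟨h2, -⟩ | ⟨-, h2⟩
  · exact absurd rfl h2
  · omega
  · omega
  · exact Or.inl ⟨P, hP, h2⟩
  · exact Or.inr ⟨P, hP, h2⟩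
  · exact absurd h2 (by decide)

theorem order11 : orderOf (-((2 : ℕ) : ZMod 11)) = 5 := by
  have : Fact (Nat.Prime 5) := ⟨by norm_num⟩
  exact orderOf_eq_prime (by decide) (by decide)

theorem iff11 (k : ℕ) : 11 ∣ 2 ^ k - 1 ↔ 2 * 5 * 1 ∣ k := by
  have ho : orderOf (2 : ZMod 11) = 10 := by
    refine orderOf_eq_of_pow_and_pow_div_prime (by norm_num) (by decide) ?_
    intro p hp hd
    have h1 : p = 2 ∨ p = 5 := by
      have h2 : p ∣ 2 * 5 := hd
      rcases (Nat.Prime.dvd_mul hp).1 h2 with h3 | h3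
      · exact Or.inl ((Nat.prime_dvd_prime_iff_eq hp (by norm_num)).1 h3)
      · exact Or.inr ((Nat.prime_dvd_prime_iff_eq hp (by norm_num)).1 h3)
    rcases h1 with rfl | rfl
    · decide
    · decide
  have h1 : (2 : ZMod 11) ^ k = 1 ↔ 10 ∣ k := by rw [← ho]; exact orderOf_dvd_iff_pow_eq_one.symm
  rw [show 2 * 5 * 1 = 10 by norm_num, ← h1, ← ZMod.natCast_eq_zero_iff, Nat.cast_sub Nat.one_le_two_pow]
  push_cast
  exact sub_eq_zero

theorem card_of_not_av {H : Subgroup T6} (h : ¬ Av (pr y11) H) : ∃ g : T6, g * pr y11 * g⁻¹ ∈ H ∧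
    orderOf (g * pr y11 * g⁻¹) = 11 := by
  obtain ⟨g, hg⟩ := Cfsg.Agent.H278.Cov.not_av h
  refine ⟨g, hg, ?_⟩
  have : g * pr y11 * g⁻¹ = (MulAut.conj g).toMonoidHom (pr y11) := rfl
  rw [this, orderOf_injective _ (MulAut.conj g).injective, order_y11]

/-- `U₄(3)` has no elements of order eleven -/
theorem not_u43 {H : Subgroup T6} (h : ¬ Av (pr y11) H) : ¬ IsU43 H := by
  rintro ⟨P, hP, K, _, _, hK, ⟨e⟩⟩
  obtain ⟨f⟩ := img_equiv hP.le e
  have hc' : Nat.card (img P) = 7 * 466560 := by rw [Nat.card_congr f.toEquiv, u43_card hK]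
  obtain ⟨g, hg, ho⟩ := card_of_not_av h
  have h0 : (g * pr y11 * g⁻¹) ^ 11 = 1 := by
    have := pow_orderOf_eq_one (g * pr y11 * g⁻¹)
    rwa [ho] at this
  have h1 := odd_mem hP hc' (by norm_num) hg (n := 5) h0
  have h2 : orderOf (g * pr y11 * g⁻¹) ∣ Nat.card (img P) := by
    rw [← Subgroup.orderOf_mk _ h1]
    exact orderOf_dvd_natCard _
  rw [ho, hc'] at h2
  norm_num at h2

theorem one_of {W : Submodule F4 V6} (h : W ≠ ⊥) (h4 : finrank F4 W + 5 ≤ 6) : finrank F4 W = 1 := by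
  have h0 : finrank F4 W ≠ 0 := fun h0 => h (Submodule.finrank_eq_zero.1 h0)
  omega

theorem lt_three {W : Submodule F4 V6} (h : 2 * finrank F4 W < 6) : finrank F4 W < 3 := by omega

/-- the overgroups of an element of order eleven -/
theorem over_eleven (hR : H680.Cov.SU6.R5803 F4 2) {H : Subgroup T6} (hH : IsCoatom H) (h : ¬ Av (pr y11) H) :
    (∃ W : Submodule F4 V6, finrank F4 W = 1 ∧ IsNondegenerateOn (hermForm 6 F4 2) W ∧
      pre H ≤ subspaceStabilizer W) ∨ IsM22 H := by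
  have hd : 11 ∣ Nat.card H := by
    obtain ⟨g, hg, ho⟩ := card_of_not_av h
    rw [← ho, ← Subgroup.orderOf_mk _ hg]
    exact orderOf_dvd_natCard _
  rcases H729.CovU.geo_over_pre (F := F4) (n := 6) (q := 2) (p := 2) (f := 1) (m := 5) (s := 11) hF (by norm_num)
      (by norm_num) (by norm_num) (by norm_num) iff11 order11 (by decide) (by norm_num) (by norm_num) (by norm_num)
      hH.1 hd with ⟨W, h1, h2, h3, h4⟩ | ⟨W, h1, h2, h3, h4, h5⟩ | ⟨r, K, h1, h2, h3, h4, -⟩ | h1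
  · have h3' : 2 * finrank F4 W + 5 ≤ 6 := h3
    have h0 : finrank F4 W = 0 := by omega
    exact absurd (Submodule.finrank_eq_zero.1 h0) h1
  · exact Or.inl ⟨W, one_of h1 h4, h2, h5⟩
  · have h5 : r ∣ 1 := by
      have := Nat.dvd_sub h3 h4
      simpa using this
    exact absurd (Nat.dvd_one.1 h5) h1.ne_one
  · rcases residual hR hH h1 with h2 | h2
    · exact Or.inr h2
    · exact absurd h2 (not_u43 h)

/-- the maximal subgroups of `U₆(2)` -/
theorem cases (hR : H680.Cov.SU6.R5803 F4 2) {K : Subgroup T6} (hK : IsCoatom K) :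
    Av (pr g9) K ∨
    (∃ D : Fin 2 → Submodule F4 V6, IsNondegenerateMDecomposition (hermForm 6 F4 2) 3 D ∧
      pre K ≤ decompositionStabilizer D) ∨
    (∃ (F₀ : Subfield F4) (P : GL (Fin 6) F4), Fintype.card F4 = Nat.card F₀ ^ 2 ∧
      pre K ≤ subfieldSubgroup F₀ P) ∨ IsM22 K ∨ IsU43 K := by
  rcases S5802.result 2 hF (pre K) (H729.CovU.isMaximalIn_pre hK) with
    ⟨W, h0, h1, h2⟩ | ⟨W, h0, h1, h2, h3⟩ | ⟨h, -⟩ | ⟨h, -⟩ | ⟨D, h1, h2⟩ | ⟨D, h1, h2, h3⟩ | ⟨h, -⟩ | ⟨h, -⟩ |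
    ⟨F₀, r, P, h1, h2, h3, -⟩ | ⟨F₀, P, ζ, h1, -, -, -, -, h2⟩ | ⟨h, -⟩ | h
  · exact Or.inl (av_nine h0 (Or.inl h1) (h2.le.trans inf_le_left))
  · exact Or.inl (av_nine h0 (Or.inr (lt_three h2)) (h3.le.trans inf_le_left))
  · omega
  · omega
  · exact Or.inr (Or.inl ⟨D, h1, h2.le.trans inf_le_left⟩)
  · exact Or.inl (av_nine_dec h1 h2 (h3.le.trans inf_le_left))
  · omega
  · omega
  · exfalso
    have h4 : (4 : ℕ) = Nat.card F₀ ^ r := h3
    have hr : 3 ≤ r := by
      have := h1.two_le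
      rcases h2 with ⟨m, rfl⟩
      omega
    have hn : Nat.card F₀ ≤ 1 := by
      by_contra hn
      have h5 : 2 ^ 3 ≤ Nat.card F₀ ^ r :=
        (Nat.pow_le_pow_left (by omega) 3).trans (Nat.pow_le_pow_right (by omega) hr)
      omega
    have h5 : Nat.card F₀ ^ r ≤ 1 := Nat.pow_le_one_iff (by omega) |>.2 hn
    omega
  · exact Or.inr (Or.inr (Or.inl ⟨F₀, P, h1, h2.le.trans inf_le_left⟩))
  · exact absurd h (by decide)
  · exact Or.inr (Or.inr (Or.inr (residual hR hK h)))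

theorem m22_av_nine {M : Subgroup T6} (h : IsM22 M) : Av (pr g9) M ∧ Av (pr g9b) M ∧ Av (pr x5 * pr z3) M := by
  obtain ⟨P, hP, h1⟩ := h
  have hc := m22_card h1
  refine ⟨?_, ?_, ?_⟩
  · exact av_odd hP (MulEquiv.refl _) hc (by norm_num) (n := 4) order_g9 fun x => (m22_odd h1 x).1
  · exact av_odd hP (MulEquiv.refl _) hc (by norm_num) (n := 4) order_g9b fun x => (m22_odd h1 x).1
  · exact av_odd hP (MulEquiv.refl _) hc (by norm_num) (n := 7) order_15 fun x => (m22_odd h1 x).2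

theorem u43_av_fifteen {M : Subgroup T6} (h : IsU43 M) : Av (pr x5 * pr z3) M := by
  obtain ⟨P, hP, K, _, _, hK, ⟨e⟩⟩ := h
  exact av_odd hP e (u43_card hK) (by norm_num) (n := 7) order_15 fun x => H359.no_fifteen_psu43 hK x

theorem dec_av_fifteen {M : Subgroup T6} {D : Fin 2 → Submodule F4 V6}
    (hD : IsNondegenerateMDecomposition (hermForm 6 F4 2) 3 D) (hM : pre M ≤ decompositionStabilizer D) :
    Av (pr x5 * pr z3) M := by
  have h : Commute (pr x5) (pr z3) := pr_comm X5_Z3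
  apply Cfsg.Agent.H278.Cov.Av.of_pow (n := 6)
  have h5 : pr x5 ^ 6 = pr x5 := by
    have : pr x5 ^ 5 = 1 := by rw [← order_x5, pow_orderOf_eq_one]
    rw [pow_succ, this, one_mul]
  have h3 : pr z3 ^ 6 = 1 := by
    have : pr z3 ^ 3 = 1 := by rw [← order_z3, pow_orderOf_eq_one]
    rw [show pr z3 ^ 6 = (pr z3 ^ 3) ^ 2 from pow_mul _ 3 2, this, one_pow]
  rw [h.mul_pow, h5, h3, mul_one]
  exact av_five_dec hD hM

theorem pair (hR : H680.Cov.SU6.R5803 F4 2) {H K : Subgroup T6} (hH : IsCoatom H) (hK : IsCoatom K)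
    (h : ¬ Av (pr y11) H) : ∃ x : T6, Av x H ∧ Av x K := by
  rcases over_eleven hR hH h with ⟨W, h1, hnd, hW⟩ | hM
  · have h0 : W ≠ ⊥ := by
      rintro rfl
      rw [finrank_bot] at h1
      omega
    rcases cases hR hK with h2 | ⟨D, h2, h3⟩ | ⟨F₀, P, h2, h3⟩ | h2 | h2
    · exact ⟨_, av_nine h0 (Or.inr (by omega)) hW, h2⟩
    · exact ⟨_, av_seven h0 hnd (by omega) hW, av_seven_dec h2 h3⟩
    · obtain ⟨k, hk⟩ := av_sub_jordan h2 h3
      exact ⟨_, av_jordan k h1 hnd hW, hk⟩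
    · exact ⟨_, av_nine h0 (Or.inr (by omega)) hW, (m22_av_nine h2).1⟩
    · obtain ⟨P, hP, K', _, _, hK', ⟨e⟩⟩ := h2
      obtain ⟨k, hk⟩ := u43_jordan hP hK' e
      exact ⟨_, av_jordan k h1 hnd hW, hk⟩
  · rcases cases hR hK with h2 | ⟨D, h2, h3⟩ | ⟨F₀, P, h2, h3⟩ | h2 | h2
    · exact ⟨_, (m22_av_nine hM).1, h2⟩
    · exact ⟨_, (m22_av_nine hM).2.2, dec_av_fifteen h2 h3⟩
    · exact ⟨_, (m22_av_nine hM).2.1, av_sub_nine h2 h3⟩
    · exact ⟨_, (m22_av_nine hM).1, (m22_av_nine h2).1⟩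
    · exact ⟨_, (m22_av_nine hM).2.2, u43_av_fifteen h2⟩

/-- `U₆(2)` -/
theorem noTwo_F4 (hR : H680.Cov.SU6.R5803 F4 2) : NoTwo T6 := by
  apply Cfsg.Agent.H278.Cov.noTwo_of_coatom
  intro H K hH hK
  by_cases h : Av (pr y11) H
  · by_cases h' : Av (pr y11) K
    · exact ⟨_, h, h'⟩
    · obtain ⟨x, h1, h2⟩ := pair hR hK hH h'
      exact ⟨x, h2, h1⟩
  · exact pair hR hH hK h

end Cfsg.Agent.H906.Cov.U62

namespace Cfsg.Agent.H906.Cov

open Cfsg Cfsg.Agent.SporadicA.FieldFour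
open Cfsg.Agent.H278.Cov (NoTwo)

/-- `U₆(2)` -/
theorem noTwo_psu_six_two {F : Type} [Field F] [Fintype F] (hF : Fintype.card F = 2 ^ 2)
    (hR : H680.Cov.SU6.R5803 F4 2) : NoTwo (PSU 6 F 2) := by
  obtain ⟨e⟩ := Cfsg.Agent.SporadicStructure.PsuMatch.psu_iso_of_card (F := F4) (K := F)
    (F4.card_eq.trans hF.symm) 6 2
  exact (U62.noTwo_F4 hR).congr e

end Cfsg.Agent.H906.Cov
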