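import Cfsg.Agent.H852.USixElts
import Cfsg.Agent.H729.CovU
import Cfsg.Agent.H914.Sub

/-!
# S2499, `U₆(2)`: explicit elements of `SU_6(2)` and the geometric subgroups (helper906)
-/

set_option autoImplicit false
set_option maxRecDepth 100000

namespace Cfsg.Agent.H906.Cov.U62

open Cfsg Cfsg.Geo Matrix Module
open Cfsg.Agent.SporadicA.FieldFour F4
open Cfsg.Agent.H852.USixElts
open Cfsg.Agent.H278.Cov (Av)
open Cfsg.Agent.H251.GeoU (pre)
open scoped MatrixGroups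

abbrev G6 := SU 6 F4 2
abbrev T6 := PSU 6 F4 2
abbrev V6 := Fin 6 → F4

theorem suHom_mat (g : G6) : ((H918.suHom 6 F4 2 g : GL (Fin 6) F4) : M6) = mat g := rfl

theorem mem_pre {M : Subgroup T6} {g : G6} : H918.suHom 6 F4 2 g ∈ pre M ↔ pr g ∈ M := by
  constructor
  · rintro ⟨k, hk, h1⟩
    rw [← H918.suHom_injective h1]
    exact hk
  · intro h
    exact ⟨g, h, rfl⟩

theorem av_of {M : Subgroup T6} {g : G6} (h : ∀ c : G6, H918.suHom 6 F4 2 (c * g * c⁻¹) ∈ pre M → False) :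
    Av (pr g) M := by
  intro a ha
  obtain ⟨c, rfl⟩ := QuotientGroup.mk'_surjective _ a
  refine h c (mem_pre.2 ?_)
  rw [map_mul, map_mul, map_inv]
  exact ha

theorem herm_mat (g : G6) (u v : V6) : hermForm 6 F4 2 (mat g *ᵥ u) (mat g *ᵥ v) = hermForm 6 F4 2 u v :=
  (H918.mem_GU.1 (H918.suHom_mem g).1) u v

theorem mat_inv_mul (g : G6) : mat g⁻¹ * mat g = 1 := by
  rw [← mat_mul, inv_mul_cancel, mat_one]

theorem mat_mul_inv (g : G6) : mat g * mat g⁻¹ = 1 := by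
  rw [← mat_mul, mul_inv_cancel, mat_one]

/-! ### transport of invariant subspaces -/

/-- the subspace `c⁻¹ W` -/
def back (c : G6) (W : Submodule F4 V6) : Submodule F4 V6 := W.comap (Matrix.toLin' (mat c))

theorem mem_back {c : G6} {W : Submodule F4 V6} {u : V6} : u ∈ back c W ↔ mat c *ᵥ u ∈ W := by
  rw [back, Submodule.mem_comap, Matrix.toLin'_apply]

theorem back_inv {c g : G6} {W : Submodule F4 V6} (h : ∀ u ∈ W, mat (c * g * c⁻¹) *ᵥ u ∈ W) :
    ∀ u ∈ back c W, mat g *ᵥ u ∈ back c W := by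
  intro u hu
  rw [mem_back] at hu ⊢
  have h1 := h _ hu
  rwa [mat_mul, Matrix.mulVec_mulVec, Matrix.mul_assoc, mat_inv_mul, Matrix.mul_one, mat_mul,
    ← Matrix.mulVec_mulVec] at h1

theorem back_ts {c : G6} {W : Submodule F4 V6} (h : IsTotallySingularFor (hermForm 6 F4 2) W) :
    IsTotallySingularFor (hermForm 6 F4 2) (back c W) := by
  intro u hu v hv
  rw [← herm_mat c]
  exact h _ (mem_back.1 hu) _ (mem_back.1 hv)

/-- `c` as a linear equivalence -/
noncomputable def ce (c : G6) : V6 ≃ₗ[F4] V6 :=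
  LinearEquiv.ofLinearMap (Matrix.toLin' (mat c)) (Matrix.toLin' (mat c⁻¹))
    (by rw [← Matrix.toLin'_mul, mat_mul_inv, Matrix.toLin'_one])
    (by rw [← Matrix.toLin'_mul, mat_inv_mul, Matrix.toLin'_one])

theorem ce_apply (c : G6) (u : V6) : ce c u = mat c *ᵥ u := by
  show Matrix.toLin' (mat c) u = _
  rw [Matrix.toLin'_apply]

theorem finrank_back (c : G6) (W : Submodule F4 V6) : finrank F4 (back c W) = finrank F4 W := by
  have h1 : back c W = W.map (ce c).symm.toLinearMap := by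
    ext u
    rw [mem_back, Submodule.mem_map]
    constructor
    · intro h
      refine ⟨_, h, ?_⟩
      rw [← ce_apply]
      exact (ce c).symm_apply_apply u
    · rintro ⟨y, hy, rfl⟩
      rw [← ce_apply]
      have : ce c ((ce c).symm y) = y := (ce c).apply_symm_apply y
      rwa [show ce c ((ce c).symm.toLinearMap y) = y from this]
  rw [h1]
  exact LinearEquiv.finrank_map_eq (ce c).symm W

theorem back_ne_bot {c : G6} {W : Submodule F4 V6} (h : W ≠ ⊥) : back c W ≠ ⊥ := by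
  intro h1
  apply h
  rw [← Submodule.finrank_eq_zero (R := F4), ← finrank_back c, h1, finrank_bot]

/-! ### the element of order nine -/

theorem blockA : ∀ a b c : F4, (a ≠ 0 ∨ b ≠ 0 ∨ c ≠ 0) → ∀ j : Fin 3, ∃ x y k : F4,
    x * a + y * (w * c) + k * (w * b) = ![1, 0, 0] j ∧
    x * b + y * a + k * (w * c) = ![0, 1, 0] j ∧
    x * c + y * b + k * a = ![0, 0, 1] j := by decide +kernel

theorem blockB : ∀ a b c : F4, (a ≠ 0 ∨ b ≠ 0 ∨ c ≠ 0) → ∀ j : Fin 3, ∃ x y k : F4,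
    x * a + y * b + k * c = ![1, 0, 0] j ∧
    x * b + y * c + k * (v * a) = ![0, 1, 0] j ∧
    x * c + y * (v * a) + k * (v * b) = ![0, 0, 1] j := by decide +kernel

theorem G9_apply (u : V6) : G9 *ᵥ u = ![w * u 2, u 0, u 1, u 4, u 5, v * u 3] := by
  have h0 : (z : F4) = 0 := rfl
  have h1 : (o : F4) = 1 := rfl
  funext i
  fin_cases i <;> simp [G9, Matrix.mulVec, dotProduct, Fin.sum_univ_succ, h0, h1]

/-- the first block -/
def VA : Submodule F4 V6 where
  carrier := {u | u 3 = 0 ∧ u 4 = 0 ∧ u 5 = 0}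
  add_mem' := by
    rintro u v ⟨h1, h2, h3⟩ ⟨k1, k2, k3⟩
    exact ⟨by rw [Pi.add_apply, h1, k1, add_zero], by rw [Pi.add_apply, h2, k2, add_zero],
      by rw [Pi.add_apply, h3, k3, add_zero]⟩
  zero_mem' := ⟨rfl, rfl, rfl⟩
  smul_mem' := by
    rintro c u ⟨h1, h2, h3⟩
    exact ⟨by rw [Pi.smul_apply, h1, smul_zero], by rw [Pi.smul_apply, h2, smul_zero],
      by rw [Pi.smul_apply, h3, smul_zero]⟩

/-- the second block -/
def VB : Submodule F4 V6 where
  carrier := {u | u 0 = 0 ∧ u 1 = 0 ∧ u 2 = 0}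
  add_mem' := by
    rintro u v ⟨h1, h2, h3⟩ ⟨k1, k2, k3⟩
    exact ⟨by rw [Pi.add_apply, h1, k1, add_zero], by rw [Pi.add_apply, h2, k2, add_zero],
      by rw [Pi.add_apply, h3, k3, add_zero]⟩
  zero_mem' := ⟨rfl, rfl, rfl⟩
  smul_mem' := by
    rintro c u ⟨h1, h2, h3⟩
    exact ⟨by rw [Pi.smul_apply, h1, smul_zero], by rw [Pi.smul_apply, h2, smul_zero],
      by rw [Pi.smul_apply, h3, smul_zero]⟩

theorem VA_le {W : Submodule F4 V6} (h0 : (![1, 0, 0, 0, 0, 0] : V6) ∈ W) (h1 : (![0, 1, 0, 0, 0, 0] : V6) ∈ W)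
    (h2 : (![0, 0, 1, 0, 0, 0] : V6) ∈ W) : VA ≤ W := by
  rintro u ⟨h3, h4, h5⟩
  have e : u = u 0 • (![1, 0, 0, 0, 0, 0] : V6) + u 1 • (![0, 1, 0, 0, 0, 0] : V6) +
      u 2 • (![0, 0, 1, 0, 0, 0] : V6) := by
    funext i
    fin_cases i
    · exact (show ∀ a b c : F4, a = a * 1 + b * 0 + c * 0 by decide) _ _ _
    · exact (show ∀ a b c : F4, b = a * 0 + b * 1 + c * 0 by decide) _ _ _
    · exact (show ∀ a b c : F4, c = a * 0 + b * 0 + c * 1 by decide) _ _ _
    · exact h3.trans ((show ∀ a b c : F4, 0 = a * 0 + b * 0 + c * 0 by decide) _ _ _)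
    · exact h4.trans ((show ∀ a b c : F4, 0 = a * 0 + b * 0 + c * 0 by decide) _ _ _)
    · exact h5.trans ((show ∀ a b c : F4, 0 = a * 0 + b * 0 + c * 0 by decide) _ _ _)
  rw [e]
  exact W.add_mem (W.add_mem (W.smul_mem _ h0) (W.smul_mem _ h1)) (W.smul_mem _ h2)

theorem VB_le {W : Submodule F4 V6} (h0 : (![0, 0, 0, 1, 0, 0] : V6) ∈ W) (h1 : (![0, 0, 0, 0, 1, 0] : V6) ∈ W)
    (h2 : (![0, 0, 0, 0, 0, 1] : V6) ∈ W) : VB ≤ W := by
  rintro u ⟨h3, h4, h5⟩
  have e : u = u 3 • (![0, 0, 0, 1, 0, 0] : V6) + u 4 • (![0, 0, 0, 0, 1, 0] : V6) +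
      u 5 • (![0, 0, 0, 0, 0, 1] : V6) := by
    funext i
    fin_cases i
    · exact h3.trans ((show ∀ a b c : F4, 0 = a * 0 + b * 0 + c * 0 by decide) _ _ _)
    · exact h4.trans ((show ∀ a b c : F4, 0 = a * 0 + b * 0 + c * 0 by decide) _ _ _)
    · exact h5.trans ((show ∀ a b c : F4, 0 = a * 0 + b * 0 + c * 0 by decide) _ _ _)
    · exact (show ∀ a b c : F4, a = a * 1 + b * 0 + c * 0 by decide) _ _ _
    · exact (show ∀ a b c : F4, b = a * 0 + b * 1 + c * 0 by decide) _ _ _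
    · exact (show ∀ a b c : F4, c = a * 0 + b * 0 + c * 1 by decide) _ _ _
  rw [e]
  exact W.add_mem (W.add_mem (W.smul_mem _ h0) (W.smul_mem _ h1)) (W.smul_mem _ h2)

theorem comb_mem {W : Submodule F4 V6} (hW : ∀ u ∈ W, G9 *ᵥ u ∈ W) {u : V6} (hu : u ∈ W) (x y k : F4) :
    (![x * u 0 + y * (w * u 2) + k * (w * u 1), x * u 1 + y * u 0 + k * (w * u 2), x * u 2 + y * u 1 + k * u 0,
      x * u 3 + y * u 4 + k * u 5, x * u 4 + y * u 5 + k * (v * u 3),
      x * u 5 + y * (v * u 3) + k * (v * u 4)] : V6) ∈ W := by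
  have e : (![x * u 0 + y * (w * u 2) + k * (w * u 1), x * u 1 + y * u 0 + k * (w * u 2),
      x * u 2 + y * u 1 + k * u 0, x * u 3 + y * u 4 + k * u 5, x * u 4 + y * u 5 + k * (v * u 3),
      x * u 5 + y * (v * u 3) + k * (v * u 4)] : V6) = x • u + y • (G9 *ᵥ u) + k • (G9 *ᵥ (G9 *ᵥ u)) := by
    rw [G9_apply u, G9_apply]
    funext i
    fin_cases i <;> rfl
  rw [e]
  exact W.add_mem (W.add_mem (W.smul_mem _ hu) (W.smul_mem _ (hW _ hu))) (W.smul_mem _ (hW _ (hW _ hu)))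

theorem vec_eq {a b c d e f a' b' c' d' e' f' : F4} (h1 : a = a') (h2 : b = b') (h3 : c = c') (h4 : d = d')
    (h5 : e = e') (h6 : f = f') : (![a, b, c, d, e, f] : V6) = ![a', b', c', d', e', f'] := by
  rw [h1, h2, h3, h4, h5, h6]

theorem pA_le {W : Submodule F4 V6} (hW : ∀ u ∈ W, G9 *ᵥ u ∈ W) {a b c : F4} (hu : (![a, b, c, 0, 0, 0] : V6) ∈ W)
    (h0 : a ≠ 0 ∨ b ≠ 0 ∨ c ≠ 0) : VA ≤ W := by
  have h3 : ∀ x y k : F4, x * 0 + y * 0 + k * 0 = 0 := by decide
  have h4 : ∀ x y k : F4, x * 0 + y * 0 + k * (v * 0) = 0 := by decide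
  have h5 : ∀ x y k : F4, x * 0 + y * (v * 0) + k * (v * 0) = 0 := by decide
  refine VA_le ?_ ?_ ?_
  · obtain ⟨x, y, k, e0, e1, e2⟩ := blockA _ _ _ h0 0
    exact (vec_eq e0 e1 e2 (h3 x y k) (h4 x y k) (h5 x y k)) ▸ comb_mem hW hu x y k
  · obtain ⟨x, y, k, e0, e1, e2⟩ := blockA _ _ _ h0 1
    exact (vec_eq e0 e1 e2 (h3 x y k) (h4 x y k) (h5 x y k)) ▸ comb_mem hW hu x y k
  · obtain ⟨x, y, k, e0, e1, e2⟩ := blockA _ _ _ h0 2
    exact (vec_eq e0 e1 e2 (h3 x y k) (h4 x y k) (h5 x y k)) ▸ comb_mem hW hu x y k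

theorem pB_le {W : Submodule F4 V6} (hW : ∀ u ∈ W, G9 *ᵥ u ∈ W) {a b c : F4} (hu : (![0, 0, 0, a, b, c] : V6) ∈ W)
    (h0 : a ≠ 0 ∨ b ≠ 0 ∨ c ≠ 0) : VB ≤ W := by
  have h3 : ∀ x y k : F4, x * 0 + y * (w * 0) + k * (w * 0) = 0 := by decide
  have h4 : ∀ x y k : F4, x * 0 + y * 0 + k * (w * 0) = 0 := by decide
  have h5 : ∀ x y k : F4, x * 0 + y * 0 + k * 0 = 0 := by decide
  refine VB_le ?_ ?_ ?_
  · obtain ⟨x, y, k, e0, e1, e2⟩ := blockB _ _ _ h0 0
    exact (vec_eq (h3 x y k) (h4 x y k) (h5 x y k) e0 e1 e2) ▸ comb_mem hW hu x y k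
  · obtain ⟨x, y, k, e0, e1, e2⟩ := blockB _ _ _ h0 1
    exact (vec_eq (h3 x y k) (h4 x y k) (h5 x y k) e0 e1 e2) ▸ comb_mem hW hu x y k
  · obtain ⟨x, y, k, e0, e1, e2⟩ := blockB _ _ _ h0 2
    exact (vec_eq (h3 x y k) (h4 x y k) (h5 x y k) e0 e1 e2) ▸ comb_mem hW hu x y k

theorem g9_inv {W : Submodule F4 V6} (hW : ∀ u ∈ W, G9 *ᵥ u ∈ W) (h0 : W ≠ ⊥) : VA ≤ W ∨ VB ≤ W := by
  obtain ⟨u, hu, hu0⟩ := (Submodule.ne_bot_iff W).1 h0
  have h3 : G9 *ᵥ (G9 *ᵥ (G9 *ᵥ u)) ∈ W := hW _ (hW _ (hW _ hu))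
  have hA : ![u 0, u 1, u 2, 0, 0, 0] ∈ W := by
    have e : ![u 0, u 1, u 2, 0, 0, 0] = G9 *ᵥ (G9 *ᵥ (G9 *ᵥ u)) + v • u := by
      funext i
      simp only [Pi.add_apply, Pi.smul_apply, smul_eq_mul, G9_apply]
      fin_cases i
      · exact (show ∀ a : F4, a = w * a + v * a by decide) _
      · exact (show ∀ a : F4, a = w * a + v * a by decide) _
      · exact (show ∀ a : F4, a = w * a + v * a by decide) _
      · exact (show ∀ a : F4, 0 = v * a + v * a by decide) _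
      · exact (show ∀ a : F4, 0 = v * a + v * a by decide) _
      · exact (show ∀ a : F4, 0 = v * a + v * a by decide) _
    rw [e]
    exact W.add_mem h3 (W.smul_mem _ hu)
  have hB : ![0, 0, 0, u 3, u 4, u 5] ∈ W := by
    have e : ![0, 0, 0, u 3, u 4, u 5] = G9 *ᵥ (G9 *ᵥ (G9 *ᵥ u)) + w • u := by
      funext i
      simp only [Pi.add_apply, Pi.smul_apply, smul_eq_mul, G9_apply]
      fin_cases i
      · exact (show ∀ a : F4, 0 = w * a + w * a by decide) _
      · exact (show ∀ a : F4, 0 = w * a + w * a by decide) _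
      · exact (show ∀ a : F4, 0 = w * a + w * a by decide) _
      · exact (show ∀ a : F4, a = v * a + w * a by decide) _
      · exact (show ∀ a : F4, a = v * a + w * a by decide) _
      · exact (show ∀ a : F4, a = v * a + w * a by decide) _
    rw [e]
    exact W.add_mem h3 (W.smul_mem _ hu)
  by_cases hz : u 0 ≠ 0 ∨ u 1 ≠ 0 ∨ u 2 ≠ 0
  · exact Or.inl (pA_le hW hA hz)
  · right
    refine pB_le hW hB ?_
    by_contra hz'
    push Not at hz hz'
    apply hu0
    funext i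
    fin_cases i
    · exact hz.1
    · exact hz.2.1
    · exact hz.2.2
    · exact hz'.1
    · exact hz'.2.1
    · exact hz'.2.2

theorem finrank_VA : 3 ≤ finrank F4 VA := by
  let f : (Fin 3 → F4) →ₗ[F4] VA :=
    { toFun := fun g => ⟨![g 0, g 1, g 2, 0, 0, 0], ⟨rfl, rfl, rfl⟩⟩
      map_add' := fun g h => Subtype.ext (by funext i; fin_cases i <;> rfl)
      map_smul' := fun c g => Subtype.ext (by
        funext i
        fin_cases i
        · rfl
        · rfl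
        · rfl
        · exact (show ∀ c : F4, 0 = c * 0 by decide) c
        · exact (show ∀ c : F4, 0 = c * 0 by decide) c
        · exact (show ∀ c : F4, 0 = c * 0 by decide) c) }
  have hf : Function.Injective f := by
    intro g h hgh
    have h1 := congrArg Subtype.val hgh
    funext i
    fin_cases i
    · exact congrFun h1 0
    · exact congrFun h1 1
    · exact congrFun h1 2
  have := LinearMap.finrank_le_finrank_of_injective hf
  rwa [finrank_fin_fun] at this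

theorem finrank_VB : 3 ≤ finrank F4 VB := by
  let f : (Fin 3 → F4) →ₗ[F4] VB :=
    { toFun := fun g => ⟨![0, 0, 0, g 0, g 1, g 2], ⟨rfl, rfl, rfl⟩⟩
      map_add' := fun g h => Subtype.ext (by funext i; fin_cases i <;> rfl)
      map_smul' := fun c g => Subtype.ext (by
        funext i
        fin_cases i
        · exact (show ∀ c : F4, 0 = c * 0 by decide) c
        · exact (show ∀ c : F4, 0 = c * 0 by decide) c
        · exact (show ∀ c : F4, 0 = c * 0 by decide) c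
        · rfl
        · rfl
        · rfl) }
  have hf : Function.Injective f := by
    intro g h hgh
    have h1 := congrArg Subtype.val hgh
    funext i
    fin_cases i
    · exact congrFun h1 3
    · exact congrFun h1 4
    · exact congrFun h1 5
  have := LinearMap.finrank_le_finrank_of_injective hf
  rwa [finrank_fin_fun] at this

theorem not_ts_VA {W : Submodule F4 V6} (h : VA ≤ W) : ¬ IsTotallySingularFor (hermForm 6 F4 2) W := by
  intro h1
  have h2 : (Pi.single 0 1 : V6) ∈ W := h ⟨by decide, by decide, by decide⟩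
  exact absurd (h1 _ h2 _ h2) (by decide)

theorem not_ts_VB {W : Submodule F4 V6} (h : VB ≤ W) : ¬ IsTotallySingularFor (hermForm 6 F4 2) W := by
  intro h1
  have h2 : (Pi.single 3 1 : V6) ∈ W := h ⟨by decide, by decide, by decide⟩
  exact absurd (h1 _ h2 _ h2) (by decide)

/-- `g9` fixes no totally singular subspace and no subspace of dimension at most two -/
theorem g9_kill {W : Submodule F4 V6} (hW : ∀ u ∈ W, G9 *ᵥ u ∈ W) (h0 : W ≠ ⊥)
    (h : IsTotallySingularFor (hermForm 6 F4 2) W ∨ finrank F4 W < 3) : False := by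
  rcases g9_inv hW h0 with h1 | h1
  · rcases h with h | h
    · exact not_ts_VA h1 h
    · have := Submodule.finrank_mono h1
      have := finrank_VA
      omega
  · rcases h with h | h
    · exact not_ts_VB h1 h
    · have := Submodule.finrank_mono h1
      have := finrank_VB
      omega

theorem mat_g9 : mat g9 = G9 := mat_mk _ _ _

theorem inv_of_stab {W : Submodule F4 V6} {g c : G6}
    (h : H918.suHom 6 F4 2 (c * g * c⁻¹) ∈ subspaceStabilizer W) : ∀ u ∈ back c W, mat g *ᵥ u ∈ back c W :=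
  back_inv fun u hu => (H918.mem_subspaceStabilizer.1 h u).1 hu

theorem av_nine {M : Subgroup T6} {W : Submodule F4 V6} (h0 : W ≠ ⊥)
    (h : IsTotallySingularFor (hermForm 6 F4 2) W ∨ finrank F4 W < 3) (hM : pre M ≤ subspaceStabilizer W) :
    Av (pr g9) M := by
  refine av_of fun c hc => ?_
  have h1 := inv_of_stab (hM hc)
  rw [mat_g9] at h1
  refine g9_kill h1 (back_ne_bot h0) ?_
  rcases h with h | h
  · exact Or.inl (back_ts h)
  · exact Or.inr ((finrank_back c W).trans_lt h)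

/-! ### decompositions into two subspaces and elements of odd order -/

theorem inv_pow' {W : Submodule F4 V6} {g : G6} (h : ∀ u ∈ W, mat g *ᵥ u ∈ W) (n : ℕ) :
    ∀ u ∈ W, mat (g ^ n) *ᵥ u ∈ W := by
  induction n with
  | zero => intro u hu; rwa [pow_zero, mat_one, Matrix.one_mulVec]
  | succ n ih =>
    intro u hu
    rw [pow_succ, mat_mul, ← Matrix.mulVec_mulVec]
    exact ih _ (h u hu)

theorem dec_stab {D : Fin 2 → Submodule F4 V6} {g : G6} {m : ℕ} (hg : g ^ (2 * m + 1) = 1)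
    (h : H918.suHom 6 F4 2 g ∈ decompositionStabilizer D) (i : Fin 2) : ∀ u ∈ D i, mat g *ᵥ u ∈ D i := by
  obtain ⟨σ, hσ⟩ := h
  have hσ2 : σ (σ i) = i := (show ∀ (σ : Equiv.Perm (Fin 2)) (i : Fin 2), σ (σ i) = i by decide) σ i
  have h2 : ∀ u ∈ D i, mat (g ^ 2) *ᵥ u ∈ D i := by
    intro u hu
    rw [pow_two, mat_mul, ← Matrix.mulVec_mulVec]
    have h3 : mat g *ᵥ u ∈ D (σ i) := by
      rw [← hσ i]
      exact ⟨u, hu, Matrix.toLin'_apply _ _⟩
    have h4 : mat g *ᵥ (mat g *ᵥ u) ∈ D (σ (σ i)) := by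
      rw [← hσ (σ i)]
      exact ⟨_, h3, Matrix.toLin'_apply _ _⟩
    rwa [hσ2] at h4
  have h5 := inv_pow' h2 (m + 1)
  rwa [← pow_mul, show 2 * (m + 1) = 2 * m + 1 + 1 by ring, pow_succ, hg, one_mul] at h5

theorem conj_pow' {c g : G6} {n : ℕ} (h : g ^ n = 1) : (c * g * c⁻¹) ^ n = 1 := by
  rw [conj_pow, h, mul_one, mul_inv_cancel]

theorem g9_pow : g9 ^ 9 = 1 := mat_inj (by rw [mat_pow, mat_g9, G9_pow, mat_one])

theorem av_nine_dec {M : Subgroup T6} {D : Fin 2 → Submodule F4 V6} (hD : IsMDecomposition 3 D)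
    (hts : ∀ i, IsTotallySingularFor (hermForm 6 F4 2) (D i)) (hM : pre M ≤ decompositionStabilizer D) :
    Av (pr g9) M := by
  refine av_of fun c hc => ?_
  have h1 := dec_stab (m := 4) (conj_pow' g9_pow) (hM hc) 0
  have h2 := back_inv h1
  rw [mat_g9] at h2
  refine g9_kill h2 (back_ne_bot ?_) (Or.inl (back_ts (hts 0)))
  intro h0
  have := hD.finrank_eq 0
  rw [h0, finrank_bot] at this
  omega

/-! ### elements of order seven and five -/

open Cfsg.Agent.H951 in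
theorem fix_of_nd {s : ℕ} [Fact s.Prime] (hs2 : ¬ s ∣ 2) {x : G6} (hx : x ^ s = 1) {W : Submodule F4 V6}
    (hW : ∀ u ∈ W, mat x *ᵥ u ∈ W) (hnd : IsNondegenerateOn (hermForm 6 F4 2) W)
    (hlt : finrank F4 W < orderOf (-((2 : ℕ) : ZMod s))) : ∀ u ∈ W, mat x *ᵥ u = u := by
  have hr := H251.GeoU.natCast_ne (F := F4) hF (Fact.out : s.Prime) hs2
  have hB := H950.frm_herm (F := F4) (q := 2) hF 6
  have hI : Isom (hermForm 6 F4 2) (Matrix.toLin' (mat x)) := by
    intro u v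
    rw [Matrix.toLin'_apply, Matrix.toLin'_apply]
    exact herm_mat x u v
  have hxs : (Matrix.toLin' (mat x)) ^ s = 1 := by
    rw [← Matrix.toLin'_pow, ← mat_pow, hx, mat_one, Matrix.toLin'_one]
    rfl
  have hinv : Inv (Matrix.toLin' (mat x)) W := by
    intro u hu
    rw [Matrix.toLin'_apply]
    exact hW u hu
  have hN : Nd (hermForm 6 F4 2) W := fun u hu hu0 => (hnd u hu hu0).2
  have h1 := hI.nd_inf_cm hB hr hxs hinv hN
  have hcf : W ⊓ cm (Matrix.toLin' (mat x)) ⊓ fx (Matrix.toLin' (mat x)) = ⊥ := by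
    rw [eq_bot_iff]
    rintro u ⟨⟨-, h2⟩, h3⟩
    have := (isCompl_fx_cm hr hxs).inf_eq_bot
    rw [← this]
    exact ⟨h3, h2⟩
  have h2 := H950.ord_neg_dvd (F := F4) hF hs2 hI hxs (hinv.inf inv_cm) h1 hcf
  have h3 : finrank F4 ↥(W ⊓ cm (Matrix.toLin' (mat x))) = 0 := by
    by_contra h0
    have h4 := Nat.le_of_dvd (Nat.pos_of_ne_zero h0) h2
    have h5 := Submodule.finrank_mono (inf_le_left : W ⊓ cm (Matrix.toLin' (mat x)) ≤ W)
    omega
  rw [Submodule.finrank_eq_zero] at h3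
  intro u hu
  have h4 : Matrix.toLin' (mat x) u - u ∈ W ⊓ cm (Matrix.toLin' (mat x)) :=
    ⟨W.sub_mem (hinv u hu) hu, mem_cm.2 ⟨u, rfl⟩⟩
  rw [h3, Submodule.mem_bot, Matrix.toLin'_apply] at h4
  exact sub_eq_zero.1 h4

theorem ord7 : orderOf (-((2 : ℕ) : ZMod 7)) = 6 := by
  have h : (-((2 : ℕ) : ZMod 7)) = 5 := by decide
  rw [h]
  have : Fact (Nat.Prime 2) := ⟨by norm_num⟩
  rw [orderOf_eq_iff (by norm_num)]
  refine ⟨by decide, ?_⟩
  intro m hm h0
  interval_cases m <;> decide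

theorem ord5 : orderOf (-((2 : ℕ) : ZMod 5)) = 4 := by
  have h : (-((2 : ℕ) : ZMod 5)) = 3 := by decide
  rw [h, orderOf_eq_iff (by norm_num)]
  refine ⟨by decide, ?_⟩
  intro m hm h0
  interval_cases m <;> decide

theorem mat_x7 : mat x7 = X7 := mat_mk _ _ _

theorem x7_pow : x7 ^ 7 = 1 := mat_inj (by rw [mat_pow, mat_x7, X7_pow, mat_one])

theorem x7_fix {u : V6} (h : mat x7 *ᵥ u = u) : u = 0 := by
  have h7 : Fact (Nat.Prime 7) := ⟨by norm_num⟩
  have hI : Cfsg.Agent.H951.Isom (hermForm 6 F4 2) (Matrix.toLin' (mat x7)) := by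
    intro u v
    rw [Matrix.toLin'_apply, Matrix.toLin'_apply]
    exact herm_mat x7 u v
  have hxs : (Matrix.toLin' (mat x7)) ^ 7 = 1 := by
    rw [← Matrix.toLin'_pow, ← mat_pow, x7_pow, mat_one, Matrix.toLin'_one]
    rfl
  have hne : Matrix.toLin' (mat x7) ≠ 1 := by
    intro h1
    have h2 : mat x7 = 1 := by
      apply Matrix.toLin'.injective
      rw [h1, Matrix.toLin'_one]
      rfl
    have h3 := congrFun (congrFun h2 0) 2
    rw [mat_x7] at h3
    exact absurd h3 (by decide)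
  have h1 := H251.GeoU.fix_le (F := F4) hF (s := 7) (by norm_num) hI hxs hne
  rw [ord7] at h1
  have h2 : finrank F4 ↥(Cfsg.Agent.H951.fx (Matrix.toLin' (mat x7))) = 0 := by omega
  rw [Submodule.finrank_eq_zero] at h2
  have h3 : u ∈ Cfsg.Agent.H951.fx (Matrix.toLin' (mat x7)) := by
    rw [Cfsg.Agent.H951.mem_fx, Matrix.toLin'_apply]
    exact h
  rwa [h2, Submodule.mem_bot] at h3

theorem x7_kill {c : G6} {W : Submodule F4 V6} (hW : ∀ u ∈ W, mat (c * x7 * c⁻¹) *ᵥ u ∈ W) (h0 : W ≠ ⊥)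
    (hnd : IsNondegenerateOn (hermForm 6 F4 2) W) (hlt : finrank F4 W < 6) : False := by
  have h7 : Fact (Nat.Prime 7) := ⟨by norm_num⟩
  obtain ⟨u, hu, hu0⟩ := (Submodule.ne_bot_iff W).1 h0
  have h1 := fix_of_nd (s := 7) (by norm_num) (conj_pow' x7_pow) hW hnd (by rw [ord7]; exact hlt) u hu
  rw [mat_mul, mat_mul, ← Matrix.mulVec_mulVec, ← Matrix.mulVec_mulVec] at h1
  have h2 := congrArg (fun y => mat c⁻¹ *ᵥ y) h1
  simp only [Matrix.mulVec_mulVec, mat_inv_mul, ← Matrix.mul_assoc, Matrix.one_mul] at h2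
  rw [← Matrix.mulVec_mulVec] at h2
  have h3 := x7_fix h2
  apply hu0
  have h4 := congrArg (fun y => mat c *ᵥ y) h3
  simpa only [Matrix.mulVec_mulVec, mat_mul_inv, Matrix.one_mulVec, Matrix.mulVec_zero] using h4

theorem av_seven {M : Subgroup T6} {W : Submodule F4 V6} (h0 : W ≠ ⊥)
    (hnd : IsNondegenerateOn (hermForm 6 F4 2) W) (hlt : finrank F4 W < 6) (hM : pre M ≤ subspaceStabilizer W) :
    Av (pr x7) M :=
  av_of fun _ hc => x7_kill (fun u hu => (H918.mem_subspaceStabilizer.1 (hM hc) u).1 hu) h0 hnd hlt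

theorem av_seven_dec {M : Subgroup T6} {D : Fin 2 → Submodule F4 V6}
    (hD : IsNondegenerateMDecomposition (hermForm 6 F4 2) 3 D) (hM : pre M ≤ decompositionStabilizer D) :
    Av (pr x7) M := by
  refine av_of fun c hc => ?_
  have hr := hD.decomp.finrank_eq 0
  refine x7_kill (dec_stab (m := 3) (conj_pow' x7_pow) (hM hc) 0) ?_ (hD.nondegenerate 0)
    (lt_of_eq_of_lt hr (by norm_num))
  intro h0
  rw [h0, finrank_bot] at hr
  omega

theorem mat_x5 : mat x5 = X5 := mat_mk _ _ _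

theorem x5_pow : x5 ^ 5 = 1 := mat_inj (by rw [mat_pow, mat_x5, X5_pow, mat_one])

theorem av_five_dec {M : Subgroup T6} {D : Fin 2 → Submodule F4 V6}
    (hD : IsNondegenerateMDecomposition (hermForm 6 F4 2) 3 D) (hM : pre M ≤ decompositionStabilizer D) :
    Av (pr x5) M := by
  have h5 : Fact (Nat.Prime 5) := ⟨by norm_num⟩
  refine av_of fun c hc => ?_
  have h1 : ∀ i, ∀ u ∈ D i, mat (c * x5 * c⁻¹) *ᵥ u = u := by
    intro i
    have hr := hD.decomp.finrank_eq i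
    exact fix_of_nd (s := 5) (by norm_num) (conj_pow' x5_pow) (dec_stab (m := 2) (conj_pow' x5_pow) (hM hc) i)
      (hD.nondegenerate i) (by rw [ord5]; exact lt_of_eq_of_lt hr (by norm_num))
  have h2 : (⊤ : Submodule F4 V6) ≤ LinearMap.ker (Matrix.toLin' (mat (c * x5 * c⁻¹)) - LinearMap.id) := by
    rw [← hD.decomp.iSup_eq_top]
    refine iSup_le fun i u hu => ?_
    rw [LinearMap.mem_ker, LinearMap.sub_apply, Matrix.toLin'_apply, h1 i u hu, LinearMap.id_apply, sub_self]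
  have h3 : mat (c * x5 * c⁻¹) = 1 := by
    apply Matrix.toLin'.injective
    rw [Matrix.toLin'_one]
    apply LinearMap.ext
    intro u
    have := h2 (Submodule.mem_top (x := u))
    rw [LinearMap.mem_ker, LinearMap.sub_apply] at this
    exact sub_eq_zero.1 this
  have h4 : c * x5 * c⁻¹ = 1 := mat_inj (by rw [h3, mat_one])
  have h5 : x5 = 1 := by
    have : x5 = c⁻¹ * (c * x5 * c⁻¹) * c := by group
    rw [this, h4]; group
  have h6 := congrFun (congrFun (congrArg mat h5) 0) 1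
  rw [mat_x5] at h6
  exact absurd h6 (by decide)

end Cfsg.Agent.H906.Cov.U62

/-!
# S2499, `U₆(2)`: regular unipotent elements (helper906)
-/

namespace Cfsg.Agent.H906.Cov.U62

open Cfsg Cfsg.Geo Matrix Module
open Cfsg.Agent.SporadicA.FieldFour F4
open Cfsg.Agent.H852.USixElts
open Cfsg.Agent.H278.Cov (Av)
open Cfsg.Agent.H251.GeoU (pre)
open scoped MatrixGroups

/-! ### the matrices -/

def X8 : M6 := !![z,z,z,z,o,z; z,z,z,z,z,o; z,o,w,v,z,z; z,o,v,w,z,z; z,v,v,v,z,z; w,z,z,z,z,z]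
def T0 : M6 := !![z,z,v,z,v,z; z,z,z,z,o,z; z,v,z,z,z,o; o,v,z,z,z,o; z,v,v,v,v,z; z,z,z,o,o,z]
def U0 : M6 := !![z,z,o,o,z,z; w,o,z,z,w,o; w,o,z,z,z,z; z,o,z,z,z,o; z,o,z,z,z,z; o,v,o,z,o,v]

/-- the nilpotent matrix `e_j ↦ e_{j+1}` -/
def S6 : M6 := !![z,z,z,z,z,z; o,z,z,z,z,z; z,o,z,z,z,z; z,z,o,z,z,z; z,z,z,o,z,z; z,z,z,z,o,z]

def cf (k : Fin 3) : F4 := ![o, w, v] k
def cfi (k : Fin 3) : F4 := ![o, v, w] k
def dgm (a : F4) : M6 := Matrix.diagonal ![a, o, o, o, o, o]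

def XK (k : Fin 3) : M6 := dgm (cf k) * X8 * dgm (cfi k)
def QK (k : Fin 3) : M6 := dgm (cf k) * T0
def QKi (k : Fin 3) : M6 := U0 * dgm (cfi k)

theorem XK_st : ∀ k, st (XK k) * XK k = 1 := by decide +kernel

theorem XK_two : ∀ k, XK k * XK k = dgm (cf k) * (X8 * X8) * dgm (cfi k) := by decide +kernel

theorem XK_eight : ∀ k, XK k ^ 8 = 1 := by decide +kernel

theorem XK_QK : ∀ k, XK k * QK k = QK k * (1 + S6) := by decide +kernel

theorem QK_QKi : ∀ k, QK k * QKi k = 1 := by decide +kernel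

theorem QK_last : ∀ k, hermForm 6 F4 2 (QK k *ᵥ ![0, 0, 0, 0, 0, 1]) (QK k *ᵥ ![0, 0, 0, 0, 0, 1]) = 0 := by
  decide +kernel

/-- the regular unipotent elements -/
def xk (k : Fin 3) : G6 := mk (XK k) (XK_st k) (det_one_of_pow 8 (XK_eight k) (by decide))

theorem mat_xk (k : Fin 3) : mat (xk k) = XK k := mat_mk _ _ _

theorem det_T0 : T0.det ≠ 0 := by
  intro h
  have h1 : QK 0 * QKi 0 = 1 := QK_QKi 0
  have h2 := congrArg Matrix.det h1
  rw [Matrix.det_mul, QK, Matrix.det_mul, h, mul_zero, zero_mul, Matrix.det_one] at h2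
  exact zero_ne_one h2

theorem det_QK (k : Fin 3) : (QK k).det = cf k * T0.det := by
  rw [QK, Matrix.det_mul, dgm, Matrix.det_diagonal, Fin.prod_univ_six]
  congr 1
  exact (show ∀ a : F4, a * o * o * o * o * o = a by decide) (cf k)

/-- `A` is regular unipotent with the cyclic basis `Q` -/
def J (A Q : M6) : Prop := A * Q = Q * (1 + S6) ∧ Q.det ≠ 0

theorem j_xk (c : G6) (k : Fin 3) : J (mat (c * xk k * c⁻¹)) (mat c * QK k) := by
  constructor
  · rw [mat_mul, mat_mul, mat_xk]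
    calc mat c * XK k * mat c⁻¹ * (mat c * QK k) = mat c * XK k * (mat c⁻¹ * mat c) * QK k := by
          simp only [Matrix.mul_assoc]
      _ = mat c * (XK k * QK k) := by rw [mat_inv_mul, Matrix.mul_one, Matrix.mul_assoc]
      _ = _ := by rw [XK_QK, Matrix.mul_assoc]
  · rw [Matrix.det_mul, det_mat, one_mul, det_QK]
    refine mul_ne_zero ?_ det_T0
    revert k
    decide

theorem det_cQ (c : G6) (k : Fin 3) : (mat c * QK k).det = cf k * T0.det := by
  rw [Matrix.det_mul, det_mat, one_mul, det_QK]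

theorem S6_apply (y : Fin 6 → F4) : (1 + S6) *ᵥ y = ![y 0, y 1 + y 0, y 2 + y 1, y 3 + y 2, y 4 + y 3, y 5 + y 4] := by
  have h0 : (z : F4) = 0 := rfl
  have h1 : (o : F4) = 1 := rfl
  rw [Matrix.add_mulVec, Matrix.one_mulVec]
  funext i
  fin_cases i <;> simp [S6, dotProduct, Fin.sum_univ_succ, h0, h1]

/-- the eigenvectors of a regular unipotent element -/
theorem j_eig {A Q : M6} (h : J A Q) {u : V6} {l : F4} (hu : A *ᵥ u = l • u) :
    ∃ t : F4, u = Q *ᵥ ![0, 0, 0, 0, 0, t] := by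
  have hQ : IsUnit Q.det := isUnit_iff_ne_zero.2 h.2
  obtain ⟨y, rfl⟩ : ∃ y, u = Q *ᵥ y := ⟨Q⁻¹ *ᵥ u, by
    rw [Matrix.mulVec_mulVec, Matrix.mul_nonsing_inv _ hQ, Matrix.one_mulVec]⟩
  have h1 : (1 + S6) *ᵥ y = l • y := by
    have h2 : Q *ᵥ ((1 + S6) *ᵥ y) = Q *ᵥ (l • y) := by
      rw [Matrix.mulVec_mulVec, ← h.1, ← Matrix.mulVec_mulVec, hu, Matrix.mulVec_smul]
    have h3 := congrArg (fun a => Q⁻¹ *ᵥ a) h2
    simpa only [Matrix.mulVec_mulVec, ← Matrix.mul_assoc, Matrix.nonsing_inv_mul _ hQ, Matrix.one_mulVec,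
      Matrix.one_mul] using h3
  rw [S6_apply] at h1
  have e0 : y 0 = l * y 0 := congrFun h1 0
  have e1 : y 1 + y 0 = l * y 1 := congrFun h1 1
  have e2 : y 2 + y 1 = l * y 2 := congrFun h1 2
  have e3 : y 3 + y 2 = l * y 3 := congrFun h1 3
  have e4 : y 4 + y 3 = l * y 4 := congrFun h1 4
  have e5 : y 5 + y 4 = l * y 5 := congrFun h1 5
  refine ⟨y 5, ?_⟩
  congr 1
  by_cases hl : l = 1
  · subst hl
    have key : ∀ a b : F4, a + b = 1 * a → b = 0 := by decide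
    funext i
    fin_cases i
    · exact key _ _ e1
    · exact key _ _ e2
    · exact key _ _ e3
    · exact key _ _ e4
    · exact key _ _ e5
    · rfl
  · have key0 : ∀ a l : F4, l ≠ 1 → a = l * a → a = 0 := by decide
    have key : ∀ a l : F4, l ≠ 1 → a + 0 = l * a → a = 0 := by decide
    have f0 := key0 _ _ hl e0
    rw [f0] at e1
    have f1 := key _ _ hl e1
    rw [f1] at e2
    have f2 := key _ _ hl e2
    rw [f2] at e3
    have f3 := key _ _ hl e3
    rw [f3] at e4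
    have f4 := key _ _ hl e4
    funext i
    fin_cases i
    · exact f0
    · exact f1
    · exact f2
    · exact f3
    · exact f4
    · rfl

/-- the regular unipotent elements fix no nondegenerate point -/
theorem av_jordan (k : Fin 3) {M : Subgroup T6} {W : Submodule F4 V6} (h1 : finrank F4 W = 1)
    (hnd : IsNondegenerateOn (hermForm 6 F4 2) W) (hM : pre M ≤ subspaceStabilizer W) : Av (pr (xk k)) M := by
  refine av_of fun c hc => ?_
  obtain ⟨u, hu, hspan⟩ := finrank_eq_one_iff'.1 h1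
  have hmem : ∀ x ∈ W, ∃ t : F4, t • (u : V6) = x := by
    intro x hx
    obtain ⟨t, ht⟩ := hspan ⟨x, hx⟩
    exact ⟨t, congrArg Subtype.val ht⟩
  have hu0 : (u : V6) ≠ 0 := fun h => hu (Subtype.ext h)
  have h2 : mat (c * xk k * c⁻¹) *ᵥ (u : V6) ∈ W := (H918.mem_subspaceStabilizer.1 (hM hc) u).1 u.2
  obtain ⟨l, hl⟩ := hmem _ h2
  obtain ⟨t, ht⟩ := j_eig (j_xk c k) hl.symm
  have hself : hermForm 6 F4 2 (u : V6) (u : V6) = 0 := by
    have e : (![0, 0, 0, 0, 0, t] : V6) = t • ![0, 0, 0, 0, 0, 1] := by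
      funext i
      fin_cases i
      all_goals first
        | exact (show ∀ t : F4, 0 = t * 0 by decide) t
        | exact (show ∀ t : F4, t = t * 1 by decide) t
    rw [ht, e, Matrix.mulVec_smul, ← Matrix.mulVec_mulVec]
    have hsm : ∀ (t : F4) (a : V6), hermForm 6 F4 2 (t • a) (t • a) = t * t ^ 2 * hermForm 6 F4 2 a a := by
      intro t a
      unfold hermForm
      rw [Finset.mul_sum]
      refine Finset.sum_congr rfl fun i _ => ?_
      rw [Pi.smul_apply, smul_eq_mul]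
      ring
    rw [hsm, herm_mat, QK_last, mul_zero]
  obtain ⟨x, hx, hxu⟩ := (hnd _ u.2 hu0).1
  obtain ⟨t', rfl⟩ := hmem x hx
  apply hxu
  have : hermForm 6 F4 2 (t' • (u : V6)) (u : V6) = t' * hermForm 6 F4 2 (u : V6) (u : V6) := by
    unfold hermForm
    rw [Finset.mul_sum]
    refine Finset.sum_congr rfl fun i _ => ?_
    rw [Pi.smul_apply, smul_eq_mul]
    ring
  rw [this, hself, mul_zero]

/-! ### matrices commuting with `S6 ^ 2` -/

theorem det_tri (a b c d e f g h i j k l : F4) :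
    (!![a, b, 0, 0, 0, 0; c, d, 0, 0, 0, 0; e, f, a, b, 0, 0; g, h, c, d, 0, 0; i, j, e, f, a, b;
      k, l, g, h, c, d] : M6).det = (a * d - b * c) ^ 3 := by
  simp [Matrix.det_succ_row_zero, Fin.sum_univ_succ, Fin.succAbove]
  ring

theorem SS_eq : S6 * S6 = !![z,z,z,z,z,z; z,z,z,z,z,z; o,z,z,z,z,z; z,o,z,z,z,z; z,z,o,z,z,z; z,z,z,o,z,z] := by
  decide +kernel

theorem right_SS (R : M6) (i : Fin 6) : (R * (S6 * S6)) i = ![R i 2, R i 3, R i 4, R i 5, 0, 0] := by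
  have h0 : (z : F4) = 0 := rfl
  have h1 : (o : F4) = 1 := rfl
  rw [SS_eq]
  funext j
  rw [Matrix.mul_apply, Fin.sum_univ_six]
  fin_cases j <;> simp [h0, h1]

theorem left_SS (R : M6) (j : Fin 6) : (fun i => (S6 * S6 * R) i j) = ![0, 0, R 0 j, R 1 j, R 2 j, R 3 j] := by
  have h0 : (z : F4) = 0 := rfl
  have h1 : (o : F4) = 1 := rfl
  rw [SS_eq]
  funext i
  rw [Matrix.mul_apply, Fin.sum_univ_six]
  fin_cases i <;> simp [h0, h1]

theorem det_comm {R : M6} (h : R * (S6 * S6) = S6 * S6 * R) : R.det = 0 ∨ R.det = 1 := by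
  have e : ∀ i j, ![R i 2, R i 3, R i 4, R i 5, 0, 0] j = ![0, 0, R 0 j, R 1 j, R 2 j, R 3 j] i := by
    intro i j
    rw [← right_SS, h, ← left_SS]
  have h02 : R 0 2 = 0 := e 0 0
  have h03 : R 0 3 = 0 := e 0 1
  have h04 : R 0 4 = 0 := e 0 2
  have h05 : R 0 5 = 0 := e 0 3
  have h12 : R 1 2 = 0 := e 1 0
  have h13 : R 1 3 = 0 := e 1 1
  have h14 : R 1 4 = 0 := e 1 2
  have h15 : R 1 5 = 0 := e 1 3
  have h22 : R 2 2 = R 0 0 := e 2 0
  have h23 : R 2 3 = R 0 1 := e 2 1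
  have h24 : R 2 4 = R 0 2 := e 2 2
  have h25 : R 2 5 = R 0 3 := e 2 3
  have h32 : R 3 2 = R 1 0 := e 3 0
  have h33 : R 3 3 = R 1 1 := e 3 1
  have h34 : R 3 4 = R 1 2 := e 3 2
  have h35 : R 3 5 = R 1 3 := e 3 3
  have h42 : R 4 2 = R 2 0 := e 4 0
  have h43 : R 4 3 = R 2 1 := e 4 1
  have h44 : R 4 4 = R 2 2 := e 4 2
  have h45 : R 4 5 = R 2 3 := e 4 3
  have h52 : R 5 2 = R 3 0 := e 5 0
  have h53 : R 5 3 = R 3 1 := e 5 1
  have h54 : R 5 4 = R 3 2 := e 5 2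
  have h55 : R 5 5 = R 3 3 := e 5 3
  have hR : R = !![R 0 0, R 0 1, 0, 0, 0, 0; R 1 0, R 1 1, 0, 0, 0, 0; R 2 0, R 2 1, R 0 0, R 0 1, 0, 0;
      R 3 0, R 3 1, R 1 0, R 1 1, 0, 0; R 4 0, R 4 1, R 2 0, R 2 1, R 0 0, R 0 1;
      R 5 0, R 5 1, R 3 0, R 3 1, R 1 0, R 1 1] := by
    ext i j
    fin_cases i <;> fin_cases j
    · rfl
    · rfl
    · exact h02
    · exact h03
    · exact h04
    · exact h05
    · rfl
    · rfl
    · exact h12
    · exact h13
    · exact h14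
    · exact h15
    · rfl
    · rfl
    · exact h22
    · exact h23
    · exact h24.trans h02
    · exact h25.trans h03
    · rfl
    · rfl
    · exact h32
    · exact h33
    · exact h34.trans h12
    · exact h35.trans h13
    · rfl
    · rfl
    · exact h42
    · exact h43
    · exact h44.trans h22
    · exact h45.trans h23
    · rfl
    · rfl
    · exact h52
    · exact h53
    · exact h54.trans h32
    · exact h55.trans h33
  rw [hR, det_tri]
  exact (show ∀ a : F4, a ^ 3 = 0 ∨ a ^ 3 = 1 by decide) _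

theorem X8_T0 : X8 * X8 * T0 = T0 * (1 + S6 * S6) := by decide +kernel

theorem U0_T0 : U0 * T0 = 1 := by decide +kernel

theorem T0_U0 : T0 * U0 = 1 := by decide +kernel

theorem dgm_inv : ∀ k, dgm (cfi k) * dgm (cf k) = 1 := by decide +kernel

theorem dgm_inv' : ∀ k, dgm (cf k) * dgm (cfi k) = 1 := by decide +kernel

theorem det_dgm (a : F4) : (dgm a).det = a := by
  rw [dgm, Matrix.det_diagonal, Fin.prod_univ_six]
  exact (show ∀ a : F4, a * o * o * o * o * o = a by decide) a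

theorem comm_of {R : M6} (h : R * (X8 * X8) = X8 * X8 * R) : R.det = 0 ∨ R.det = 1 := by
  have h1 : (U0 * R * T0).det = R.det := by
    rw [Matrix.det_mul, Matrix.det_mul, mul_comm (U0.det), mul_assoc, ← Matrix.det_mul, U0_T0, Matrix.det_one,
      mul_one]
  rw [← h1]
  apply det_comm
  have h2 : U0 * R * T0 * (1 + S6 * S6) = (1 + S6 * S6) * (U0 * R * T0) := by
    have h3 : U0 * (X8 * X8) = (1 + S6 * S6) * U0 := by
      have := congrArg (fun Y => U0 * Y * U0) X8_T0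
      simp only [Matrix.mul_assoc, T0_U0, Matrix.mul_one] at this
      rw [← Matrix.mul_assoc U0 T0, U0_T0, Matrix.one_mul] at this
      exact this
    calc U0 * R * T0 * (1 + S6 * S6) = U0 * R * (T0 * (1 + S6 * S6)) := by rw [Matrix.mul_assoc]
      _ = U0 * (R * (X8 * X8)) * T0 := by rw [← X8_T0]; simp only [Matrix.mul_assoc]
      _ = U0 * (X8 * X8) * R * T0 := by rw [h]; simp only [Matrix.mul_assoc]
      _ = _ := by rw [h3]; simp only [Matrix.mul_assoc]
  rw [Matrix.mul_add, Matrix.add_mul, Matrix.mul_one, Matrix.one_mul] at h2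
  exact add_left_cancel h2

theorem sq_ne {j k : Fin 3} {t : T6} (h : t * pr (xk j) ^ 2 * t⁻¹ = pr (xk k) ^ 2) : j = k := by
  obtain ⟨m, rfl⟩ := QuotientGroup.mk'_surjective _ t
  have h1 : pr (m * xk j ^ 2 * m⁻¹ * (xk k ^ 2)⁻¹) = 1 := by
    rw [map_mul, map_mul, map_mul, map_inv, map_inv, map_pow, map_pow]
    exact mul_inv_eq_one.2 h
  obtain ⟨l, hl3, hl⟩ := pr_eq_one h1
  have h2 : mat (m * xk j ^ 2 * m⁻¹) = l • mat (xk k ^ 2) := by
    have h3 : m * xk j ^ 2 * m⁻¹ = m * xk j ^ 2 * m⁻¹ * (xk k ^ 2)⁻¹ * (xk k ^ 2) := by group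
    rw [h3, mat_mul, hl, Matrix.smul_mul, Matrix.one_mul]
  have hx8 : ∀ i, (xk i) ^ 8 = 1 := fun i => mat_inj (by rw [mat_pow, mat_xk, XK_eight, mat_one])
  have h4 : mat ((m * xk j ^ 2 * m⁻¹) ^ 4) = l ^ 4 • mat ((xk k ^ 2) ^ 4) := by
    rw [mat_pow, h2, smul_pow, ← mat_pow]
  have h5 : (m * xk j ^ 2 * m⁻¹) ^ 4 = 1 := conj_pow' (by rw [← pow_mul]; exact hx8 j)
  rw [h5, ← pow_mul, hx8, mat_one] at h4
  have hl1 : l = 1 := by
    have h6 := congrFun (congrFun h4 0) 0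
    rw [Matrix.smul_apply, Matrix.one_apply_eq, smul_eq_mul, mul_one] at h6
    have : l ^ 4 = l * l ^ 3 := by ring
    rw [this, hl3, mul_one] at h6
    exact h6.symm
  rw [hl1, one_smul] at h2
  have h6 : mat m * (XK j * XK j) = XK k * XK k * mat m := by
    have h7 := congrArg (fun Y => Y * mat m) h2
    simp only [mat_mul, mat_xk, pow_two, Matrix.mul_assoc, mat_inv_mul, Matrix.mul_one] at h7
    simpa only [Matrix.mul_assoc] using h7
  rw [XK_two, XK_two] at h6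
  have h7 : dgm (cfi k) * mat m * dgm (cf j) * (X8 * X8) = X8 * X8 * (dgm (cfi k) * mat m * dgm (cf j)) := by
    calc dgm (cfi k) * mat m * dgm (cf j) * (X8 * X8)
        = dgm (cfi k) * (mat m * (dgm (cf j) * (X8 * X8) * dgm (cfi j))) * dgm (cf j) := by
          simp only [Matrix.mul_assoc, dgm_inv, Matrix.mul_one]
      _ = (dgm (cfi k) * dgm (cf k)) * (X8 * X8) * dgm (cfi k) * mat m * dgm (cf j) := by
          rw [h6]; simp only [Matrix.mul_assoc]
      _ = _ := by rw [dgm_inv, Matrix.one_mul]; simp only [Matrix.mul_assoc]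
  have h8 := comm_of h7
  rw [Matrix.det_mul, Matrix.det_mul, det_mat, det_dgm, det_dgm] at h8
  exact (show ∀ j k : Fin 3, cfi k * 1 * cf j = 0 ∨ cfi k * 1 * cf j = 1 → j = k by decide) j k h8

/-! ### the subfield subgroup -/

theorem sub_two {F₀ : Subfield F4} (hF₀ : Fintype.card F4 = Nat.card F₀ ^ 2) {x : F4} (hx : x ∈ F₀) :
    x = 0 ∨ x = 1 := by
  have h4 : Fintype.card F4 = 4 := rfl
  rw [h4] at hF₀
  have h2 : Nat.card F₀ = 2 := by
    have : Nat.card F₀ ≤ 2 := by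
      by_contra h
      have h3 : 3 ≤ Nat.card F₀ := by omega
      have := Nat.pow_le_pow_left h3 2
      omega
    interval_cases h : Nat.card F₀
    · omega
    · omega
    · rfl
  have hfin : Fintype F₀ := Fintype.ofFinite F₀
  have h5 : (⟨x, hx⟩ : F₀) ^ Fintype.card F₀ = ⟨x, hx⟩ := FiniteField.pow_card _
  rw [← Nat.card_eq_fintype_card, h2] at h5
  have h6 : x ^ 2 = x := congrArg Subtype.val h5
  exact (show ∀ x : F4, x ^ 2 = x → x = 0 ∨ x = 1 by decide) x h6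

/-- rational form of an element of the subfield group -/
theorem rat_of {F₀ : Subfield F4} {P : GL (Fin 6) F4} {g : G6}
    (hg : H918.suHom 6 F4 2 g ∈ subfieldSubgroup F₀ P) :
    ∃ (c : F4) (B : M6), c ≠ 0 ∧ (∀ i j, B i j ∈ F₀) ∧ (P : M6) * B = c • (mat g * (P : M6)) := by
  obtain ⟨c, hc, h⟩ := H914.mem_subfieldSubgroup_iff.1 hg
  refine ⟨c, c • ((P⁻¹ * H918.suHom 6 F4 2 g * P : GL (Fin 6) F4) : M6), hc, h, ?_⟩
  rw [Matrix.mul_smul, ← Units.val_mul, ← mul_assoc, ← mul_assoc, mul_inv_cancel, one_mul, Units.val_mul]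
  rfl

theorem mul_mem_sub {F₀ : Subfield F4} {A B : M6} (hA : ∀ i j, A i j ∈ F₀) (hB : ∀ i j, B i j ∈ F₀) :
    ∀ i j, (A * B) i j ∈ F₀ := by
  intro i j
  rw [Matrix.mul_apply]
  exact F₀.sum_mem fun k _ => F₀.mul_mem (hA i k) (hB k j)

theorem mulVec_mem_sub {F₀ : Subfield F4} {A : M6} {y : V6} (hA : ∀ i j, A i j ∈ F₀) (hy : ∀ i, y i ∈ F₀) :
    ∀ i, (A *ᵥ y) i ∈ F₀ := by
  intro i
  show ∑ k, A i k * y k ∈ F₀
  exact F₀.sum_mem fun k _ => F₀.mul_mem (hA i k) (hy k)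

theorem pow_mulVec_mem_sub {F₀ : Subfield F4} {A : M6} {y : V6} (hA : ∀ i j, A i j ∈ F₀) (hy : ∀ i, y i ∈ F₀)
    (n : ℕ) : ∀ i, (A ^ n *ᵥ y) i ∈ F₀ := by
  induction n with
  | zero => rwa [pow_zero, Matrix.one_mulVec]
  | succ n ih =>
    rw [pow_succ', ← Matrix.mulVec_mulVec]
    exact mulVec_mem_sub hA ih

theorem det_mem_sub {F₀ : Subfield F4} {A : M6} (hA : ∀ i j, A i j ∈ F₀) : A.det ∈ F₀ := by
  have h : A = (Matrix.of fun i j => (⟨A i j, hA i j⟩ : F₀)).map F₀.subtype := by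
    ext i j
    rfl
  rw [h, ← RingHom.mapMatrix_apply, ← RingHom.map_det]
  exact Subtype.property _

/-- the matrix with the columns `y, N y, ..., N ^ 5 y` -/
def kry (N : M6) (y : V6) : M6 := Matrix.of fun i k => (N ^ (k : ℕ) *ᵥ y) i

theorem pow_comm' {R N N' : M6} (h : R * N = N' * R) (n : ℕ) : R * N ^ n = N' ^ n * R := by
  induction n with
  | zero => rw [pow_zero, pow_zero, Matrix.mul_one, Matrix.one_mul]
  | succ n ih => rw [pow_succ, ← Matrix.mul_assoc, ih, Matrix.mul_assoc, h, ← Matrix.mul_assoc, ← pow_succ]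

theorem mul_kry {R N N' : M6} (h : R * N = N' * R) (y : V6) : R * kry N y = kry N' (R *ᵥ y) := by
  ext i k
  have h1 : (R * kry N y) i k = (R *ᵥ (N ^ (k : ℕ) *ᵥ y)) i := rfl
  rw [h1, Matrix.mulVec_mulVec, pow_comm' h, ← Matrix.mulVec_mulVec]
  rfl

theorem S6a (y : V6) : S6 *ᵥ y = ![0, y 0, y 1, y 2, y 3, y 4] := by
  have h0 : (z : F4) = 0 := rfl
  have h1 : (o : F4) = 1 := rfl
  funext i
  fin_cases i <;> simp [S6, Matrix.mulVec, dotProduct, Fin.sum_univ_succ, h0, h1]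

theorem kry_S6 (y : V6) : kry S6 y = !![y 0, 0, 0, 0, 0, 0; y 1, y 0, 0, 0, 0, 0; y 2, y 1, y 0, 0, 0, 0;
    y 3, y 2, y 1, y 0, 0, 0; y 4, y 3, y 2, y 1, y 0, 0; y 5, y 4, y 3, y 2, y 1, y 0] := by
  have h0 : S6 ^ 0 *ᵥ y = y := by rw [pow_zero, Matrix.one_mulVec]
  have h1 : S6 ^ 1 *ᵥ y = ![0, y 0, y 1, y 2, y 3, y 4] := by rw [pow_one, S6a]
  have h2 : S6 ^ 2 *ᵥ y = ![0, 0, y 0, y 1, y 2, y 3] := by
    rw [pow_succ', ← Matrix.mulVec_mulVec, h1, S6a]; rfl
  have h3 : S6 ^ 3 *ᵥ y = ![0, 0, 0, y 0, y 1, y 2] := by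
    rw [pow_succ', ← Matrix.mulVec_mulVec, h2, S6a]; rfl
  have h4 : S6 ^ 4 *ᵥ y = ![0, 0, 0, 0, y 0, y 1] := by
    rw [pow_succ', ← Matrix.mulVec_mulVec, h3, S6a]; rfl
  have h5 : S6 ^ 5 *ᵥ y = ![0, 0, 0, 0, 0, y 0] := by
    rw [pow_succ', ← Matrix.mulVec_mulVec, h4, S6a]; rfl
  ext i k
  fin_cases k
  · exact (congrFun h0 i).trans (by fin_cases i <;> rfl)
  · exact (congrFun h1 i).trans (by fin_cases i <;> rfl)
  · exact (congrFun h2 i).trans (by fin_cases i <;> rfl)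
  · exact (congrFun h3 i).trans (by fin_cases i <;> rfl)
  · exact (congrFun h4 i).trans (by fin_cases i <;> rfl)
  · exact (congrFun h5 i).trans (by fin_cases i <;> rfl)

theorem det_kry (y : V6) : (kry S6 y).det = y 0 ^ 6 := by
  rw [kry_S6]
  simp [Matrix.det_succ_row_zero, Fin.sum_univ_succ, Fin.succAbove]
  ring

theorem one_add_sq (c : F4) (h : c ≠ 0) (h8 : c ^ 8 = 0 ∨ c ^ 8 = 1) : c = 1 :=
  (show ∀ c : F4, c ≠ 0 → (c ^ 8 = 0 ∨ c ^ 8 = 1) → c = 1 by decide) c h h8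

theorem pow_mem_sub {F₀ : Subfield F4} {B : M6} (hB : ∀ i j, B i j ∈ F₀) (n : ℕ) : ∀ i j, (B ^ n) i j ∈ F₀ := by
  induction n with
  | zero =>
    intro i j
    rw [pow_zero, Matrix.one_apply]
    split
    · exact F₀.one_mem
    · exact F₀.zero_mem
  | succ n ih => rw [pow_succ]; exact mul_mem_sub ih hB

theorem rat_pow {P : GL (Fin 6) F4} {A B : M6} {c : F4}
    (h : (P : M6) * B = c • (A * (P : M6))) (n : ℕ) : (P : M6) * B ^ n = c ^ n • (A ^ n * (P : M6)) := by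
  have h1 : (P : M6) * B = (c • A) * (P : M6) := by rw [h, Matrix.smul_mul]
  rw [pow_comm' h1, smul_pow, Matrix.smul_mul]

theorem add_self_M (A : M6) : A + A = 0 := by
  ext i j
  exact (show ∀ a : F4, a + a = 0 by decide) _

/-- all regular unipotent elements of the subfield group are of the same kind -/
theorem det_eq_of_sub {F₀ : Subfield F4} (hF₀ : Fintype.card F4 = Nat.card F₀ ^ 2) {P : GL (Fin 6) F4} {g : G6}
    (hg : H918.suHom 6 F4 2 g ∈ subfieldSubgroup F₀ P) {Q : M6} (hJ : J (mat g) Q) (h8 : mat g ^ 8 = 1) :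
    Q.det = (P : M6).det := by
  obtain ⟨c, B, hc, hB, hPB⟩ := rat_of hg
  have hP : (P : M6).det ≠ 0 := (Matrix.isUnits_det_units P).ne_zero
  have hPi : ((P⁻¹ : GL (Fin 6) F4) : M6) * (P : M6) = 1 := by rw [← Units.val_mul, inv_mul_cancel, Units.val_one]
  have hc1 : c = 1 := by
    apply one_add_sq c hc
    have h1 := rat_pow hPB 8
    rw [h8, Matrix.one_mul] at h1
    have h2 : B ^ 8 = c ^ 8 • (1 : M6) := by
      have h3 := congrArg (fun Y => ((P⁻¹ : GL (Fin 6) F4) : M6) * Y) h1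
      simpa only [← Matrix.mul_assoc, hPi, Matrix.one_mul, Matrix.mul_smul] using h3
    have h4 := pow_mem_sub hB 8 0 0
    rw [h2, Matrix.smul_apply, Matrix.one_apply_eq, smul_eq_mul, mul_one] at h4
    exact sub_two hF₀ h4
  rw [hc1, one_smul] at hPB
  -- the nilpotent parts
  have hP1 : (P : M6) * (1 + B) = (1 + mat g) * (P : M6) := by
    rw [Matrix.mul_add, Matrix.add_mul, hPB, Matrix.mul_one, Matrix.one_mul]
  have hQ1 : Q * S6 = (1 + mat g) * Q := by
    rw [Matrix.add_mul, Matrix.one_mul, hJ.1, Matrix.mul_add, Matrix.mul_one, ← add_assoc, add_self_M, zero_add]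
  have hQu : IsUnit Q.det := isUnit_iff_ne_zero.2 hJ.2
  -- a rational vector
  obtain ⟨j, hj⟩ : ∃ j, (Q⁻¹ * (P : M6)) 0 j ≠ 0 := by
    by_contra h
    push Not at h
    have h1 : (Q⁻¹ * (P : M6)).det = 0 := Matrix.det_eq_zero_of_row_eq_zero 0 h
    rw [Matrix.det_mul] at h1
    rcases mul_eq_zero.1 h1 with h2 | h2
    · have h3 : (Q⁻¹ * Q).det = 1 := by rw [Matrix.nonsing_inv_mul _ hQu, Matrix.det_one]
      rw [Matrix.det_mul, h2, zero_mul] at h3
      exact zero_ne_one h3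
    · exact hP h2
  set e : V6 := Pi.single j 1 with he
  set y : V6 := Q⁻¹ *ᵥ ((P : M6) *ᵥ e) with hy
  have hQy : Q *ᵥ y = (P : M6) *ᵥ e := by
    rw [hy, Matrix.mulVec_mulVec, Matrix.mul_nonsing_inv _ hQu, Matrix.one_mulVec]
  have hy0 : y 0 ≠ 0 := by
    rw [hy, Matrix.mulVec_mulVec, he, Matrix.mulVec_single_one]
    exact hj
  have h1 : (P : M6) * kry (1 + B) e = Q * kry S6 y := by
    rw [mul_kry hP1, mul_kry hQ1, hQy]
  have h2 := congrArg Matrix.det h1
  rw [Matrix.det_mul, Matrix.det_mul, det_kry] at h2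
  have h3 : y 0 ^ 6 = 1 := (show ∀ a : F4, a ≠ 0 → a ^ 6 = 1 by decide) _ hy0
  rw [h3, mul_one] at h2
  have h4 : (kry (1 + B) e).det ∈ F₀ := by
    apply det_mem_sub
    intro i k
    refine pow_mulVec_mem_sub (fun a b => ?_) (fun a => ?_) _ i
    · rw [Matrix.add_apply, Matrix.one_apply]
      split
      · exact F₀.add_mem F₀.one_mem (hB a b)
      · exact F₀.add_mem F₀.zero_mem (hB a b)
    · rw [he, Pi.single_apply]
      split
      · exact F₀.one_mem
      · exact F₀.zero_mem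
  rcases sub_two hF₀ h4 with h5 | h5
  · rw [h5, mul_zero] at h2
    exact absurd h2.symm hJ.2
  · rw [h5, mul_one] at h2
    exact h2.symm

theorem exists_of_not_av {M : Subgroup T6} {g : G6} (h : ¬ Av (pr g) M) :
    ∃ c : G6, H918.suHom 6 F4 2 (c * g * c⁻¹) ∈ pre M := by
  by_contra hc
  push Not at hc
  exact h (av_of fun c hc' => hc c hc')

theorem xk_pow (k : Fin 3) : xk k ^ 8 = 1 := mat_inj (by rw [mat_pow, mat_xk, XK_eight, mat_one])

theorem av_sub_jordan {M : Subgroup T6} {F₀ : Subfield F4} (hF₀ : Fintype.card F4 = Nat.card F₀ ^ 2)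
    {P : GL (Fin 6) F4} (hM : pre M ≤ subfieldSubgroup F₀ P) : ∃ k, Av (pr (xk k)) M := by
  by_contra h
  push Not at h
  have key : ∀ k, cf k * T0.det = (P : M6).det := by
    intro k
    obtain ⟨c, hc⟩ := exists_of_not_av (h k)
    rw [← det_cQ c k]
    refine det_eq_of_sub hF₀ (hM hc) (j_xk c k) ?_
    rw [← mat_pow, conj_pow' (xk_pow k), mat_one]
  have h2 := mul_right_cancel₀ det_T0 ((key 0).trans (key 1).symm)
  exact absurd h2 (by decide)

/-! ### another element of order nine -/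

def G9b : M6 := !![z,z,w,z,z,z; o,z,z,z,z,z; z,o,z,z,z,z; z,z,z,o,z,z; z,z,z,z,o,z; z,z,z,z,z,v]

theorem G9b_st : st G9b * G9b = 1 := by decide +kernel

theorem G9b_det : G9b.det = 1 := by decide +kernel

theorem G9b_pow : G9b ^ 9 = 1 := by decide +kernel

theorem G9b_cube : G9b ^ 3 = Matrix.diagonal ![w, w, w, o, o, o] := by decide +kernel

theorem G9b_tr : (G9b ^ 3).trace = v := by decide +kernel

def g9b : G6 := mk G9b G9b_st G9b_det

theorem mat_g9b : mat g9b = G9b := mat_mk _ _ _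

theorem order_g9b : orderOf (pr g9b) = 9 := by
  have : Fact (Nat.Prime 3) := ⟨by norm_num⟩
  refine orderOf_eq_prime_pow (p := 3) (n := 1) ?_ ?_
  · intro h
    rw [pow_one, ← map_pow] at h
    obtain ⟨c, -, hc⟩ := pr_eq_one h
    rw [mat_pow, mat_g9b, G9b_cube] at hc
    have h1 := congrFun (congrFun hc 0) 0
    have h2 := congrFun (congrFun hc 3) 3
    have h3 : w = c := by simpa using h1
    have h4 : o = c := by simpa using h2
    exact absurd (h3.trans h4.symm) (by decide)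
  · rw [← map_pow]
    have h1 : g9b ^ 3 ^ (1 + 1) = 1 := mat_inj (by
      rw [mat_pow, mat_g9b]
      exact G9b_pow)
    rw [h1, map_one]

theorem av_sub_nine {M : Subgroup T6} {F₀ : Subfield F4} (hF₀ : Fintype.card F4 = Nat.card F₀ ^ 2)
    {P : GL (Fin 6) F4} (hM : pre M ≤ subfieldSubgroup F₀ P) : Av (pr g9b) M := by
  refine av_of fun a ha => ?_
  obtain ⟨c, B, hc, hB, hPB⟩ := rat_of (hM ha)
  have hPi : ((P⁻¹ : GL (Fin 6) F4) : M6) * (P : M6) = 1 := by rw [← Units.val_mul, inv_mul_cancel, Units.val_one]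
  have hPi' : (P : M6) * ((P⁻¹ : GL (Fin 6) F4) : M6) = 1 := by rw [← Units.val_mul, mul_inv_cancel, Units.val_one]
  have h1 := rat_pow hPB 3
  have h3 : c ^ 3 = 1 := (show ∀ c : F4, c ≠ 0 → c ^ 3 = 1 by decide) c hc
  rw [h3, one_smul] at h1
  have h2 : B ^ 3 = ((P⁻¹ : GL (Fin 6) F4) : M6) * (mat (a * g9b * a⁻¹) ^ 3 * (P : M6)) := by
    rw [← h1, ← Matrix.mul_assoc, hPi, Matrix.one_mul]
  have h4 : (B ^ 3).trace = v := by
    rw [h2, Matrix.trace_mul_comm, Matrix.mul_assoc, hPi', Matrix.mul_one, ← mat_pow, conj_pow, mat_mul, mat_mul,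
      Matrix.mul_assoc, Matrix.trace_mul_comm, Matrix.mul_assoc, mat_inv_mul, Matrix.mul_one, mat_pow, mat_g9b,
      G9b_tr]
  have h5 : (B ^ 3).trace ∈ F₀ := F₀.sum_mem fun i _ => pow_mem_sub hB 3 i i
  rw [h4] at h5
  rcases sub_two hF₀ h5 with h6 | h6
  · exact absurd h6 (by decide)
  · exact absurd h6 (by decide)

/-! ### an element of order fifteen -/

theorem order_15 : orderOf (pr x5 * pr z3) = 15 := by
  have h : Commute (pr x5) (pr z3) := pr_comm X5_Z3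
  rw [h.orderOf_mul_eq_mul_orderOf_of_coprime (by rw [order_x5, order_z3]; norm_num), order_x5, order_z3]

end Cfsg.Agent.H906.Cov.U62
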